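import Cfsg.Agent.Std2B.Defs
import Cfsg.Agent.MonU.BLoc
import Cfsg.Agent.Std2B.RedB

/-! Fusion of `t = j a` with `t z`. -/

set_option autoImplicit false

namespace Cfsg.Agent.Std2B

open Cfsg Cfsg.Spor Cfsg.Agent.TT Cfsg.Agent.LES Cfsg.Agent.Mon Cfsg.Agent.Spor Cfsg.Agent.Spor.Leech Subgroup
  Cfsg.Agent.MonU Cfsg.Agent.PLocal Cfsg.Agent.PLocal.Amb

variable {M : Type} [Group M] [Finite M] {z : M} {Q : Subgroup M} {π : centralizer ({z} : Set M) →* Co1}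
  {ψ : leechLattice → M} {G : Type*} [Group G] [Finite G] {j : M → G}

/-- Every involution of `C(a)` is `C(a)`-conjugate into `Q`. -/
theorem exists_conj_Q (h : If0 z Q π ψ) {l : M} (hl : l * l = 1) (hc : l * ψ leechU = ψ leechU * l) :
    ∃ k, k * ψ leechU = ψ leechU * k ∧ k * l * k⁻¹ ∈ Q := by
  have ha : ψ leechU ∈ cA ψ := IsConj.refl _
  by_cases h1 : l = 1
  · exact ⟨1, by simp, by simp [h1]⟩
  by_cases h2 : l = ψ leechU
  · exact ⟨1, by simp, by simp [h2, h.mon.mem]⟩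
  obtain ⟨w, h3, h4⟩ := exists_R h ha hc.symm hl h1 h2
  obtain ⟨k, k1, k2⟩ := Bs.std_of h ha (h.mon.mem _) h3 h4
  exact ⟨k⁻¹, comm_inv_left k1, by simpa using k2⟩

/-- `O₂(C(a, z)) ≤ Q`. -/
theorem le_Q_of_normal (h : If0 z Q π ψ) {N : Subgroup M} (hN : IsPGroup 2 N)
    (ha : ∀ x ∈ N, x * ψ leechU = ψ leechU * x) (hz : ∀ x ∈ N, x * z = z * x)
    (hn : ∀ k, k * ψ leechU = ψ leechU * k → k * z = z * k → ∀ x ∈ N, k * x * k⁻¹ ∈ N) : N ≤ Q := by
  have hA : ψ leechU ∈ cA ψ := IsConj.refl _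
  have h1 : MonData.preim π N ≤ center Co0 := by
    refine Co.le_center_of_normal_two_stab (fun g hg => ?_) (MonData.isPGroup_preim hN) fun g hg n hn' => ?_
    · obtain ⟨x, h1, h2⟩ := MonData.mem_preim.1 hg
      exact h.pm_of_comm h2 (Eqv.refl _ _) (by decide) (ha _ h1)
    · obtain ⟨k, k1, k2⟩ := h.mon.exists_comm_of_congr (g := g) (Eqv.refl z (ψ leechU))
        (h.ne_one_A hA) (h.ne_z hA) ⟨0, by simp [hg]⟩
      obtain ⟨b, h3, h4⟩ := MonData.mem_preim.1 hn'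
      exact MonData.mem_preim.2 ⟨k * b * k⁻¹, hn k k2 (MonData.comm_z k) b h3, by simp [k1, h4]⟩
  intro x hx
  obtain ⟨g, hg⟩ := QuotientGroup.mk_surjective (π ⟨x, mem_centralizer_singleton_iff.2 (hz x hx)⟩)
  exact (mem_Q_iff h hg).2 (Co.mem_center_Co0.1 (h1 (MonData.mem_preim.2 ⟨_, hx, hg⟩)))

theorem exists_sq_z (h : If0 z Q π ψ) {a : M} (ha : a ∈ Q) : ∃ q ∈ Q, q * a = a * q ∧ q * q = z := by
  obtain ⟨x, hx, y, hy, h1, h2, h3⟩ :=
    h.xs.exists_noncomm_in_centralizer (by rw [h.mon.card]; norm_num) ha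
  rcases h.xs.sq hx with e | e
  · rcases h.xs.sq hy with e' | e'
    · refine ⟨y * x, mul_mem hy hx, comm_mul_left h2 h1, ?_⟩
      calc _ = y * (x * y) * x := by group
        _ = y * y * x * (z * x) := by rw [h3]; group
        _ = _ := by rw [e', one_mul, ← h.xs.z_comm x hx, ← mul_assoc, e, one_mul]
    · exact ⟨y, hy, h2, e'⟩
  · exact ⟨x, hx, h1, e⟩

/-- Pairs `(a, y)` with `a ∈ 2A` and `y, a y ∈ 2B` are conjugate. -/
theorem trans_tD (h : If0 z Q π ψ) {a y a' y' : M} (ha : a ∈ cA ψ) (hc : a * y = y * a)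
    (hy : Bs.tD z a y) (ha' : a' ∈ cA ψ) (hc' : a' * y' = y' * a') (hy' : Bs.tD z a' y') :
    ∃ g, g * a * g⁻¹ = a' ∧ g * y * g⁻¹ = y' := by
  obtain ⟨g, rfl⟩ := isConj_iff.1 hy.1
  obtain ⟨g', rfl⟩ := isConj_iff.1 hy'.1
  obtain ⟨a, rfl⟩ := (MulAut.conj g).surjective a
  obtain ⟨a', rfl⟩ := (MulAut.conj g').surjective a'
  simp only [MulAut.conj_apply, Bs.tD, conj_mul, conj_mem_cB_iff, conj_mem_cA_iff, mul_left_inj,
    mul_right_inj] at ha hc hy ha' hc' hy' ⊢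
  obtain ⟨-, u, u1, u2⟩ := Bs.isA8 h ha hc hy.2
  obtain ⟨-, u', u1', u2'⟩ := Bs.isA8 h ha' hc' hy'.2
  obtain ⟨k, hk⟩ := u1.exists_octad XSC.C1.o0_GC XSC.C1.o0_card
  obtain ⟨k', hk'⟩ := u1'.exists_octad XSC.C1.o0_GC XSC.C1.o0_card
  obtain ⟨c, hc1⟩ := h.mon.exists_lift (k'⁻¹ * k)
  let b := c * ⟨a, mem_centralizer_singleton_iff.2 hc⟩ * c⁻¹
  have e : (u' : Co1) = π b := by
    rw [map_mul, map_mul, map_inv, ← hc1, ← u2, ← QuotientGroup.mk_inv, ← QuotientGroup.mk_mul,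
      ← QuotientGroup.mk_mul, ← (MulAut.conj k').injective.eq_iff.1 (show k' * (k'⁻¹ * k * u * (k'⁻¹ * k)⁻¹) * k'⁻¹ =
        k' * u' * k'⁻¹ by rw [hk', ← hk]; group)]
  have h1 := (h.mon.ker (b⁻¹ * ⟨a', mem_centralizer_singleton_iff.2 hc'⟩)).1 (by
    rw [map_mul, map_inv, ← e, ← u2', inv_mul_cancel])
  obtain ⟨q, hq, h2⟩ := h.coset b (conj_mem_cA ha c) (CE.J0.not_mem_Q h u1' e) _ h1 (by simpa using ha')
  have h3 : q * (c * a * (c : M)⁻¹) * q⁻¹ = a' := h2.symm.trans (mul_inv_cancel_left _ _)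
  refine ⟨g' * q * c * g⁻¹, by rw [← h3]; group, ?_⟩
  calc _ = g' * (q * (c * z * (c : M)⁻¹) * q⁻¹) * g'⁻¹ := by group
    _ = _ := by rw [conj_eq_of_comm (MonData.comm_z c), conj_eq_of_comm (h.xs.z_comm q hq)]

/-- An involution `y` of `C(a)` is conjugate in `C(a)` to `a y`, or one of `y`, `a y` is conjugate to `z`. -/
theorem conj_cases (h : If0 z Q π ψ) {a y : M} (ha : a ∈ cA ψ) (hQ : a ∈ Q) (hc : a * y = y * a)
    (yy : y * y = 1) (h1 : y ≠ 1) (h2 : y ≠ a) : ∃ k, k * a = a * k ∧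
      (k * y * k⁻¹ = a * y ∨ k * z * k⁻¹ = y ∨ k * z * k⁻¹ = a * y) := by
  have e : a * (a * y) = y := by rw [← mul_assoc, h.mul_self_A ha, one_mul]
  rcases Bs.cases h ha hc yy h1 h2 with b | (b | b) | b
  · obtain ⟨w, hw⟩ := CE.J0.Rt_nonempty h ha b
    obtain ⟨k, k1, k2, -⟩ := h.trans_triple ha b ha (CD.mulD h ha b) hw ⟨hw.1, h.inQ_mul hw.1 hw.2⟩
    exact ⟨k, comm_of_conj_eq k1, Or.inl k2⟩
  · exact (Bs.exists_k h ha hQ (h.inQ_of_mul b.1 ha b.2)).imp fun _ c => ⟨c.1, Or.inr (Or.inl c.2)⟩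
  · exact (Bs.exists_k h ha hQ (h.inQ_of_mul b.2 ha (e.symm ▸ b.1))).imp
      fun _ c => ⟨c.1, Or.inr (Or.inr c.2)⟩
  · obtain ⟨k, k1, k2⟩ := trans_tD h ha hc b ha (by rw [mul_assoc, ← hc]) ⟨b.2, e.symm ▸ b.1⟩
    exact ⟨k, comm_of_conj_eq k1, Or.inl k2⟩

omit [Finite M] [Finite G] in
theorem Ch.cm {a x y : M} (c : Ch a j) (hx : x * a = a * x) (hy : y * a = a * y) :
    j x * j y = j y * j x ↔ x * y = y * x :=
  c.comm_iff (mem_centralizer_singleton_iff.2 hx) (mem_centralizer_singleton_iff.2 hy)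

omit [Finite G] in
/-- The normaliser of `⟨t, j z⟩` centralises `j z`. -/
theorem fix_z (h : If0 z Q π ψ) (c : Ch (ψ leechU) j) {g : G}
    (hg : g ∈ 𝐍[zpowers (j (ψ leechU)) ⊔ zpowers (j z)]) : g * j z * g⁻¹ = j z := by
  have hQ := h.mon.mem leechU
  have za := (h.xs.z_comm _ hQ).symm
  have m := fun {x : M} => (mem_centralizer_singleton_iff (g := ψ leechU) (k := x)).2
  have hD : ∀ g ∈ 𝐍[zpowers (j (ψ leechU)) ⊔ zpowers (j z)], ∀ x, x * ψ leechU = ψ leechU * x →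
      x * z = z * x → ∃ y, y * ψ leechU = ψ leechU * y ∧ y * z = z * y ∧ j y = g * j x * g⁻¹ :=
    fun g hg x h1 h2 => by
      have : j x ∈ 𝐂[zpowers (j (ψ leechU)) ⊔ zpowers (j z)] := by
        rw [Amb.centralizer_sup, Amb.centralizer_zpowers, Amb.centralizer_zpowers]
        exact ⟨mem_centralizer_singleton_iff.2 ((c.cm h1 rfl).2 h1),
          mem_centralizer_singleton_iff.2 ((c.cm h1 za).2 h2)⟩
      have h3 := conj_mem_of_mem_normalizer (normalizer_le_normalizer_centralizer _ hg) this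
      obtain ⟨y, h4, h5⟩ := c.onto _ (h3 _ (mem_sup_left (mem_zpowers _))).symm
      exact ⟨y, h4, (c.cm h4 za).1 (h5 ▸ (h3 _ (mem_sup_right (mem_zpowers _))).symm), h5⟩
  have hR : Q ⊓ centralizer {ψ leechU} ≤ centralizer {ψ leechU} := inf_le_right
  let N := (cj(g, c.img (Q ⊓ centralizer {ψ leechU})).comap c.hom).map (Subgroup.subtype _)
  have mN : ∀ {x}, x ∈ N ↔ x * ψ leechU = ψ leechU * x ∧ ∃ r ∈ Q, r * ψ leechU = ψ leechU * r ∧
      g * j r * g⁻¹ = j x := fun {x} =>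
    ⟨fun ⟨y, ⟨_, hw, e⟩, e'⟩ => by
      obtain ⟨r, hr, rfl⟩ := (c.mem_img hR).1 hw
      exact e' ▸ ⟨mem_centralizer_singleton_iff.1 y.2, r, hr.1, mem_centralizer_singleton_iff.1 hr.2, e⟩,
    fun ⟨h1, r, h2, h3, h4⟩ => ⟨⟨x, m h1⟩, ⟨_, (c.mem_img hR).2 ⟨r, ⟨h2, m h3⟩, rfl⟩, h4⟩, rfl⟩⟩
  have hN : N ≤ Q := le_Q_of_normal h
    ((((c.isPGroup_img (h.xs.isPGroup.to_le inf_le_left)).map _).comap_of_injective _
      c.hom_injective).map _) (fun x hx => (mN.1 hx).1)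
    (fun x hx => by
      obtain ⟨h1, r, h2, h3, h4⟩ := mN.1 hx
      obtain ⟨y, h5, h6, h7⟩ := hD g hg r h3 (h.xs.z_comm r h2)
      rwa [← (c.eq_iff (m h5) (m h1)).1 (h7.trans h4)])
    fun k k1 k2 x hx => by
      obtain ⟨h1, r, h2, h3, h4⟩ := mN.1 hx
      obtain ⟨y, h5, h6, h7⟩ := hD _ (inv_mem hg) k k1 k2
      refine mN.2 ⟨comm_mul_left (comm_mul_left k1 h1) (comm_inv_left k1), y * r * y⁻¹,
        h.mon.lx.norm y h6 r h2, comm_mul_left (comm_mul_left h5 h3) (comm_inv_left h5), ?_⟩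
      rw [c.conj (m h5) (m h3), c.conj (m k1) (m h1), h7, ← h4]; group
  obtain ⟨q, hq, h1, h2⟩ := exists_sq_z h hQ
  obtain ⟨y, h3, -, h4⟩ := hD g hg q h1 (h.xs.z_comm q hq)
  have h5 : j (y * y) = g * j z * g⁻¹ := by
    rw [c.mul _ (m h3) _ (m h3), h4, conj_mul, ← c.mul _ (m h1) _ (m h1), h2]
  rcases h.xs.sq (hN (mN.2 ⟨h3, q, hq, h1, h4.symm⟩)) with e | e <;> rw [e] at h5
  · exact absurd (c.inj z (m za) (conj_eq_one_iff.1 (h5.symm.trans c.one))) h.xs.z_ne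
  · exact h5.symm

/-- A Sylow 2-subgroup of `C(t)` inside `C(j z)` with `Ω₁ Z = ⟨t, j z⟩`. -/
theorem exists_syl (h : If0 z Q π ψ) (c : Ch (ψ leechU) j) : ∃ P : Subgroup G,
    IsSylowIn 2 P (centralizer {j (ψ leechU)}) ∧ P ≤ centralizer {j z} ∧
      ∀ x, x ∈ zpowers (j (ψ leechU)) ⊔ zpowers (j z) ↔ x ∈ P ∧ x ∈ 𝐂[P] ∧ x * x = 1 := by
  have ha : ψ leechU ∈ cA ψ := IsConj.refl _
  have hQ := h.mon.mem leechU
  have za := (h.xs.z_comm _ hQ).symm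
  have m := fun {x : M} => (mem_centralizer_singleton_iff (g := ψ leechU) (k := x)).2
  have hR : Q ⊓ centralizer {ψ leechU} ≤ centralizer {ψ leechU} := inf_le_right
  obtain ⟨P, hP, h1⟩ := exists_isSylowIn_ge (H := centralizer {j (ψ leechU)})
    (c.isPGroup_img (h.xs.isPGroup.to_le (inf_le_left (b := centralizer {ψ leechU})))) fun x hx => by
      obtain ⟨r, hr, rfl⟩ := (c.mem_img hR).1 hx
      exact mem_centralizer_singleton_iff.2 ((c.cm (mem_centralizer_singleton_iff.1 hr.2) rfl).2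
        (mem_centralizer_singleton_iff.1 hr.2))
  have h2 : ∀ q ∈ Q, q * ψ leechU = ψ leechU * q → j q ∈ P := fun q a b =>
    h1 ((c.mem_img hR).2 ⟨q, ⟨a, m b⟩, rfl⟩)
  have h3 : P ≤ centralizer {j z} := fun x hx => by
    obtain ⟨y, h4, rfl⟩ := c.onto x (mem_centralizer_singleton_iff.1 (hP.le hx))
    exact mem_centralizer_singleton_iff.2 ((c.cm h4 za).2 (mem_centralizer_singleton_iff.1
      (h.le_C_of_two hQ hQ (h.cent_one ha hQ) (S := (P.comap c.hom).map (Subgroup.subtype _))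
        ((hP.isPGroup.comap_of_injective _ c.hom_injective).map _)
        (fun q a b _ => ⟨⟨q, m b⟩, h2 q a b, rfl⟩) ⟨⟨y, m h4⟩, hx, rfl⟩)))
  have tt := (c.sq_iff (m rfl)).2 (h.mul_self_A ha)
  have zz := (c.sq_iff (m za)).2 h.mon.z_sq
  have tz := (c.cm rfl za).2 za.symm
  refine ⟨P, hP, h3, fun x => ⟨fun hx => ⟨(sup_le (zpowers_le.2 (h2 _ hQ rfl))
    (zpowers_le.2 (h2 z h.xs.z_mem za)) :) hx, (sup_le (zpowers_le.2 fun y hy =>
      mem_centralizer_singleton_iff.1 (hP.le hy)) (zpowers_le.2 fun y hy =>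
      mem_centralizer_singleton_iff.1 (h3 hy)) : _ ≤ 𝐂[P]) hx,
    by simpa [pow_two] using (isElementaryAbelian_four tt zz tz).2 x hx⟩, fun ⟨h4, h5, h6⟩ => ?_⟩⟩
  obtain ⟨y, h7, rfl⟩ := c.onto x (mem_centralizer_singleton_iff.1 (hP.le h4))
  have h8 : ∀ q ∈ Q, q * ψ leechU = ψ leechU * q → q * y = y * q := fun q a b =>
    (c.cm b h7).1 (h5 _ (h2 q a b))
  have h9 := h.mem_Q_of_cent hQ hQ ⟨y, mem_centralizer_singleton_iff.2 (h8 z h.xs.z_mem za).symm⟩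
    ((c.sq_iff (m h7)).1 h6) fun q a b _ => (h8 q a b).symm
  rw [mem_four_iff tt zz tz]
  rcases h.xs.eq_of_comm_centralizer hQ h9 h8 with e | e | e | e <;> rw [show y = _ from e]
  exacts [.inl c.one, .inr (.inr (.inl rfl)), .inr (.inl rfl), .inr (.inr (.inr (c.mul _ (m rfl) _ (m za))))]

theorem fusion (h : If0 z Q π ψ) (c : Ch (ψ leechU) j) {g : G}
    (h1 : g * j (ψ leechU) * g⁻¹ ≠ j (ψ leechU))
    (h2 : g * j (ψ leechU) * g⁻¹ * j (ψ leechU) = j (ψ leechU) * (g * j (ψ leechU) * g⁻¹)) :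
    ∃ n : G, n * j z = j z * n ∧ n * j (ψ leechU) * n⁻¹ = j (ψ leechU) * j z := by
  by_contra hn
  have ha : ψ leechU ∈ cA ψ := IsConj.refl _
  have hQ := h.mon.mem leechU
  have za := (h.xs.z_comm _ hQ).symm
  have m := fun {x : M} => (mem_centralizer_singleton_iff (g := ψ leechU) (k := x)).2
  have tt := (c.sq_iff (m rfl)).2 (h.mul_self_A ha)
  have zz := (c.sq_iff (m za)).2 h.mon.z_sq
  have tz := (c.cm rfl za).2 za.symm
  have t1 : j (ψ leechU) ≠ 1 := fun e => h.ne_one_A ha (c.inj _ (m rfl) e)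
  have z1 : j z ≠ 1 := fun e => h.xs.z_ne (c.inj _ (m za) e)
  have t2 : j (ψ leechU) ≠ j z := fun e => h.ne_z ha ((c.eq_iff (m rfl) (m za)).1 e)
  obtain ⟨P, hP, h3, h4⟩ := exists_syl h c
  have hN : ∀ n ∈ 𝐍[P], n * j (ψ leechU) * n⁻¹ = j (ψ leechU) := fun n hn' => by
    have key : ∀ n ∈ 𝐍[P], ∀ x ∈ zpowers (j (ψ leechU)) ⊔ zpowers (j z),
        n * x * n⁻¹ ∈ zpowers (j (ψ leechU)) ⊔ zpowers (j z) := fun n a x b => by
      obtain ⟨b1, b2, b3⟩ := (h4 x).1 b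
      exact (h4 _).2 ⟨conj_mem_of_mem_normalizer a b1, conj_mem_of_mem_normalizer
        (normalizer_le_normalizer_centralizer _ a) b2, by rw [conj_mul, b3]; simp⟩
    have h5 := fix_z h c (g := n) (mem_normalizer_iff.2 fun x =>
      ⟨key n hn' x, fun a => by simpa [mul_assoc] using key _ (inv_mem hn') _ a⟩)
    rcases (mem_four_iff tt zz tz).1 (key n hn' _ (mem_sup_left (mem_zpowers _))) with e | e | e | e
    · exact absurd (conj_eq_one_iff.1 e) t1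
    · exact e
    · exact absurd (by simpa using e.trans h5.symm) t2
    · exact absurd ⟨n, comm_of_conj_eq h5, e⟩ hn
  obtain ⟨S, rfl⟩ := (hP.of_normalizer_le le_top fun n a =>
    mem_centralizer_singleton_iff.2 (comm_of_conj_eq (hN n a.2))).exists_sylow_top
  have bur : ∀ x ∈ zpowers (j (ψ leechU)) ⊔ zpowers (j z), IsConj (j (ψ leechU)) x →
      x = j (ψ leechU) := fun x hx e => by
    obtain ⟨k, rfl⟩ := isConj_iff.1 e
    obtain ⟨n, a, b⟩ := S.conj_eq_normalizer_conj_of_mem_centralizer (j (ψ leechU)) k⁻¹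
      ((h4 _).1 (mem_sup_left (mem_zpowers _))).2.1 (by simpa using ((h4 _).1 hx).2.1)
    simpa [b] using (inv_inv k ▸ b).trans (by simpa using hN _ (inv_mem a))
  have n1 : ¬ IsConj (j (ψ leechU)) (j z) := fun e => t2 (bur _ (mem_sup_right (mem_zpowers _)) e).symm
  have n2 : ¬ IsConj (j (ψ leechU)) (j (ψ leechU) * j z) := fun e => z1 (by
    simpa using bur _ (mul_mem (mem_sup_left (mem_zpowers _)) (mem_sup_right (mem_zpowers _))) e)
  obtain ⟨l, l1, l2⟩ := c.onto _ h2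
  obtain ⟨k, k1, k2⟩ := exists_conj_Q h ((c.sq_iff (m l1)).1 (by rw [l2, conj_mul, tt]; simp)) l1
  have l3 := comm_mul_left (comm_mul_left k1 l1) (comm_inv_left k1)
  have l4 : j (k * l * k⁻¹) = j k * g * j (ψ leechU) * (j k * g)⁻¹ := by
    rw [c.conj (m k1) (m l1), l2]; group
  have l5 : k * l * k⁻¹ ≠ ψ leechU := fun e => h1 (by
    rw [← l2, show l = k⁻¹ * ψ leechU * k⁻¹⁻¹ by rw [← e]; group, conj_eq_of_comm (comm_inv_left k1)])
  generalize k * l * k⁻¹ = l, j k * g = g at k2 l3 l4 l5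
  have l6 : IsConj (j (ψ leechU)) (j l) := isConj_iff.2 ⟨g, l4.symm⟩
  obtain ⟨q, q1, q2, q3⟩ : ∃ q ∈ Q, q * ψ leechU = ψ leechU * q ∧ q * l ≠ l * q := by
    by_contra! e
    rcases h.xs.eq_of_comm_centralizer hQ k2 e with rfl | rfl | e | rfl
    exacts [t1 (by simpa [c.one] using l6), n1 l6, l5 e, n2 (c.mul _ (m rfl) _ (m za) ▸ l6)]
  have l7 := l6.trans (c.isConj (m l3) (m (comm_mul_left l3 za)) (m q2) (h.xs.conj_of_ne q1 k2 q3))
  rw [c.mul _ (m l3) _ (m za), l4] at l7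
  obtain ⟨y, y1, y2⟩ := c.onto (g⁻¹ * j z * g) (by
    have := (c.cm l3 za).2 (h.xs.z_comm l k2)
    rw [l4] at this
    calc _ = g⁻¹ * (j z * (g * j (ψ leechU) * g⁻¹)) * g := by group
      _ = _ := by rw [← this]; group)
  have y3 : IsConj (j y) (j z) := isConj_iff.2 ⟨g, by rw [y2]; group⟩
  have ay := comm_mul_left rfl y1
  have y4 : IsConj (j (ψ leechU)) (j (ψ leechU * y)) := l7.trans (isConj_iff.2 ⟨g⁻¹, by
    rw [c.mul _ (m rfl) _ (m y1), y2]; group⟩)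
  obtain ⟨k, k1, e | e | e⟩ := conj_cases h ha hQ y1.symm ((c.sq_iff (m y1)).1 (by
      rw [y2, show g⁻¹ * j z * g * (g⁻¹ * j z * g) = g⁻¹ * (j z * j z) * g by group, zz]; simp))
    (fun e => z1 (by simpa [e, c.one] using y3.symm)) fun e => n1 (e ▸ y3)
  · exact n1 ((y4.trans (c.isConj (m y1) (m ay) (m k1) e).symm).trans y3)
  · refine n2 (c.mul _ (m rfl) _ (m za) ▸ y4.trans
      (c.isConj (m (comm_mul_left rfl za)) (m ay) (m k1) ?_).symm)
    rw [← conj_mul, e, conj_eq_of_comm k1]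
  · exact n1 (y4.trans (c.isConj (m za) (m ay) (m k1) e).symm)

theorem not_isConj (h : If0 z Q π ψ) (c : Ch (ψ leechU) j) {n : G} (h1 : n * j z = j z * n)
    (h2 : n * j (ψ leechU) * n⁻¹ = j (ψ leechU) * j z) : ¬ IsConj (j (ψ leechU)) (j z) := by
  intro e
  obtain ⟨g, hg⟩ := isConj_iff.1 e
  have za := (h.xs.z_comm _ (h.mon.mem leechU)).symm
  have zz := (c.sq_iff (mem_centralizer_singleton_iff.2 za)).2 h.mon.z_sq
  have z1 : j z ≠ 1 := fun e => h.xs.z_ne (c.inj _ (mem_centralizer_singleton_iff.2 za) e)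
  obtain ⟨P, hP, h3, -⟩ := exists_syl h c
  have h4 := hP.map_conj g
  rw [show (centralizer {j (ψ leechU)}).map (MulAut.conj g).toMonoidHom = centralizer {j z} by
    rw [← Amb.centralizer_zpowers, ← centralizer_map_conj, MonoidHom.map_zpowers,
      Amb.centralizer_zpowers, ← hg]; rfl] at h4
  refine (h4.of_card_le hP.isPGroup h3 (PLocal.card_map_conj _ _).le).not_dvd_relIndex ?_
  have h5 : centralizer {j (ψ leechU)} ⊓ NS (j z) (j (ψ leechU)) ≤ NS (j z) (j (ψ leechU)) := inf_le_right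
  have h6 : P ≤ centralizer {j (ψ leechU)} ⊓ NS (j z) (j (ψ leechU)) := fun x hx => ⟨hP.le hx,
    mem_NS_of_comm (mem_centralizer_singleton_iff.1 (hP.le hx)) (mem_centralizer_singleton_iff.1 (h3 hx))⟩
  have hn : n ∈ NS (j z) (j (ψ leechU)) := (mem_NS zz).2 ⟨h1, .inr h2⟩
  rw [← relIndex_mul_relIndex _ _ _ (h6.trans h5) fun x hx => mem_centralizer_singleton_iff.2 hx.1,
    ← relIndex_mul_relIndex _ _ _ h6 h5, relIndex_eq_two_iff.2 ⟨n, hn, fun b hb => ?_⟩]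
  · exact Dvd.dvd.mul_right (dvd_mul_left 2 _) _
  obtain ⟨b1, b2⟩ := (mem_NS zz).1 hb
  have e1 : b * n * j (ψ leechU) * (b * n)⁻¹ = b * j (ψ leechU) * b⁻¹ * j z := by
    calc _ = b * (n * j (ψ leechU) * n⁻¹) * b⁻¹ := by group
      _ = _ := by rw [h2, ← conj_mul, conj_eq_of_comm b1]
  simp only [mem_inf, mem_centralizer_singleton_iff, mul_mem hb hn, hb, and_true,
    ← mul_inv_eq_iff_eq_mul, e1]
  rcases b2 with e | e <;> rw [e]
  · exact Or.inr ⟨rfl, by simpa using z1⟩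
  · exact Or.inl ⟨by rw [mul_assoc, zz, mul_one], by simpa using z1⟩

end Cfsg.Agent.Std2B
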