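import Cfsg.Agent.Std2B.Defs
import Cfsg.Agent.Std2B.ParG
import Cfsg.Agent.Std2B.ParL
import Cfsg.Agent.MonL.Nwc

/-! The parity argument: `K` is the whole centraliser. -/

set_option autoImplicit false

namespace Cfsg.Agent.Std2B

open Cfsg Cfsg.Spor Cfsg.Agent.TT Cfsg.Agent.LES Cfsg.Agent.Mon Cfsg.Agent.Spor Cfsg.Agent.Spor.Leech Subgroup

theorem exists_notMem {K : Type*} [Group K] [Finite K] {X : Subgroup K} (F : List K)
    (h : F.length < Nat.card X) : ∃ x ∈ X, x ∉ F := by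
  classical
  by_contra hc
  push Not at hc
  have h1 := Set.ncard_le_ncard (s := (X : Set K)) (t := F.toFinset) fun x hx =>
    List.mem_toFinset.2 (hc x hx)
  rw [Set.ncard_coe_finset, ← Nat.card_coe_set_eq] at h1
  exact absurd (h1.trans F.toFinset_card_le) (not_le.2 h)

section

variable {K : Type*} [Group K] {z : K} {Q : Subgroup K}
  {π : centralizer ({z} : Set K) →* Co1} {φ : leechLattice → K}

theorem sq_of_lift (d : MonData z Q π φ) {x : centralizer ({z} : Set K)} {h : Co0}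
    (e : (h : Co1) = π x) (hx : (x : K) * x ∈ Q) : h * h = 1 ∨ h * h = negOne :=
  Co.mem_center_Co0.1 ((QuotientGroup.eq_one_iff _).1 (by
    rw [QuotientGroup.mk_mul, e, ← map_mul]; exact (d.ker _).2 hx))

theorem le_of_trans [Finite K] (d : MonData z Q π φ) (hz : ∀ k : K, k * z = z * k) {A : Subgroup K}
    (hA : A ≤ Q) (zA : z ∈ A)
    (h1 : ∀ t ∈ φ '' {v | sqNorm (v : GolayPt → ℤ) = 32}, t ∉ A)
    (h2 : ∀ t ∈ φ '' {v | sqNorm (v : GolayPt → ℤ) = 32},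
      ∀ t' ∈ φ '' {v | sqNorm (v : GolayPt → ℤ) = 32},
      ∃ n, (∀ w ∈ A, Eqv z (n * w * n⁻¹) w) ∧ n * t * n⁻¹ * t' ∈ A) : ∀ x ∈ A, Eqv z x 1 := by
  have xs := d.lx.toXS
  refine le_of_quad (T := φ '' {v | sqNorm (v : GolayPt → ℤ) = 32}) xs hz (fun k => d.lx.norm k (hz k)) (by rintro _ ⟨v, -, rfl⟩; exact d.mem v)
    ⟨_, leechU, sqNorm_leechU, rfl⟩ (fun w hw h q hq => ?_) (fun p p1 p2 p3 p4 x hx h => ?_)
    hA zA h1 h2
  · obtain ⟨v, hv⟩ := d.onto q hq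
    rw [cmv_comm, cmv_eqv xs hw hv]
    refine lin_zero (fun v => cmv (φ v) w) (fun u v => ?_) (fun u v a b => ?_) v
    · rw [cmv_eqv xs hw (d.add u v), cmv_mul_left xs (d.mem u) (d.mem v) hw]
    · rw [cmv_comm, h _ ⟨u, a, rfl⟩ _ ⟨v, b, rfl⟩, cmv_comm]
  · obtain ⟨v, hv⟩ := d.onto x hx
    have m := fun v => p1 _ (d.mem v)
    have ad : ∀ u v, Eqv z (p (φ (u + v))) (p (φ u) * p (φ v)) := fun u v =>
      (p3 _ (mul_mem (d.mem u) (d.mem v)) _ (d.add u v)).trans xs.z_sq (p2 _ (d.mem u) _ (d.mem v))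
    have sa : ∀ u v, sqv (p (φ (u + v))) = sqv (p (φ u)) + sqv (p (φ v)) + cmv (p (φ u)) (p (φ v)) :=
      fun u v => by rw [sqv_eqv xs (mul_mem (m u) (m v)) (ad u v), sqv_mul xs (m u) (m v)]
    rw [eqv_sq xs (m v) (p3 _ (d.mem v) _ hv), ← sqv_eq_zero]
    refine quad_zero (fun v => sqv (p (φ v))) (fun u w => ?_) (fun u v w => ?_)
      (fun u w a b => p4 _ ⟨u, a, rfl⟩ _ ⟨w, b, rfl⟩) v ((d.sq_iff hv).1 h)
    · exact sqv_eqv xs (m u) (p3 _ (d.mem u) _ (d.eqv_iff.2 ⟨w, by abel⟩))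
    · have two : (2 : ZMod 2) = 0 := rfl
      simp only [sa, cmv_eqv xs (m w) (ad u v), cmv_mul_left xs (m u) (m v) (m w)]
      ring

theorem card_le_eight [Finite K] (d : MonData z Q π φ) (hz : ∀ k : K, k * z = z * k)
    {X : Subgroup K} (h1 : ∀ x ∈ X, Eqv z (x * x) 1)
    (h2 : ∀ x ∈ X, ∀ t ∈ φ '' {v | sqNorm (v : GolayPt → ℤ) = 32},
      Eqv z (x * t * x⁻¹) t → Eqv z x 1) : Nat.card X ≤ 8 := by
  let c : K → centralizer ({z} : Set K) := fun k => ⟨k, mem_centralizer_singleton_iff.2 (hz k)⟩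
  have key : ∀ x ∈ X, ¬ Eqv z x 1 → ∀ h : Co0, (h : Co1) = π (c x) → h * h = negOne :=
    fun x hx x1 h e => (sq_of_lift d e ((h1 x hx).mem d.lx.z_mem (one_mem _))).resolve_left fun a => by
      obtain ⟨v, -, b, -, -, f, -⟩ := exists_tri a
      exact x1 (h2 x hx _ ⟨v, b, rfl⟩ ((d.conj_eqv e (Eqv.refl _ _)).trans d.z_sq (d.eqv_iff.2 f)))
  have mv : ∀ u ∈ X, ∀ v, Eqv z (u * v) 1 → Eqv z v u := fun u hu v e => by
    simpa using (e.trans d.z_sq ((h1 u hu).symm d.z_sq)).mul_left u⁻¹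
  by_contra hc
  obtain ⟨a, ha, a1⟩ := exists_notMem (X := X) [1, 1 * z] (by simp; omega)
  obtain ⟨b, hb, b1⟩ := exists_notMem (X := X) [1, 1 * z, a, a * z] (by simp; omega)
  obtain ⟨e, he, e1⟩ := exists_notMem (X := X) [1, 1 * z, a, a * z, b, b * z, a * b, a * b * z]
    (by simp; omega)
  simp only [List.mem_cons, List.not_mem_nil, or_false, not_or] at a1 b1 e1
  obtain ⟨a', a2⟩ := QuotientGroup.mk_surjective (π (c a))
  obtain ⟨b', b2⟩ := QuotientGroup.mk_surjective (π (c b))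
  obtain ⟨e', e2⟩ := QuotientGroup.mk_surjective (π (c e))
  have ml : ∀ {u v : K} {u' v' : Co0}, (u' : Co1) = π (c u) → (v' : Co1) = π (c v) →
      ((u' * v' : Co0) : Co1) = π (c (u * v)) := fun f g => by
    rw [QuotientGroup.mk_mul, f, g, ← map_mul]; rfl
  exact Co.negOne_ne_one (MonL.aniso3 negOne_mul_self (key a ha (not_or.2 a1) _ a2)
    (key b hb (not_or.2 ⟨b1.1, b1.2.1⟩) _ b2) (key e he (not_or.2 ⟨e1.1, e1.2.1⟩) _ e2)
    (key _ (mul_mem ha hb) (fun f => (mv a ha b f).elim b1.2.2.1 b1.2.2.2) _ (ml a2 b2))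
    (key _ (mul_mem ha he) (fun f => (mv a ha e f).elim e1.2.2.1 e1.2.2.2.1) _ (ml a2 e2))
    (key _ (mul_mem hb he) (fun f => (mv b hb e f).elim e1.2.2.2.2.1 e1.2.2.2.2.2.1) _ (ml b2 e2))
    (key _ (mul_mem (mul_mem ha hb) he) (fun f => (mv _ (mul_mem ha hb) e f).elim
      e1.2.2.2.2.2.2.1 e1.2.2.2.2.2.2.2) _ (ml (ml a2 b2) e2)))

end

variable {C : Type*} [Group C] [Finite C] {K : Subgroup C} {z : K} {Q : Subgroup K}
  {π : centralizer ({z} : Set K) →* Co1} {φ : leechLattice → K}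

theorem eq_top_of_uniq (d : MonData z Q π φ) (hz : ∀ g : C, g * z = z * g)
    (hu : ∀ g : C, g⁻¹ * φ leechU * g ∈ K → g ∈ K) : K = ⊤ := by
  have hz' : ∀ k : K, k * z = z * k := fun k => Subtype.ext (hz k)
  refine eq_top_xs (T := φ '' {v | sqNorm (v : GolayPt → ℤ) = 32}) d.lx.toXS hz
    (fun k => d.lx.norm k (hz' k)) (by rintro _ ⟨v, -, rfl⟩; exact d.mem v) ?_ ?_
    ⟨_, leechU, sqNorm_leechU, rfl⟩ ?_ (fun A => le_of_trans d hz') fun X _ h1 h2 => ?_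
  · rintro k _ ⟨v, hv, rfl⟩
    obtain ⟨g, e⟩ := QuotientGroup.mk_surjective (π ⟨k, mem_centralizer_singleton_iff.2 (hz' k)⟩)
    exact ⟨_, ⟨g • v, (sqNorm_smul g v).trans hv, rfl⟩, d.conj_eqv e (Eqv.refl _ _)⟩
  · rintro _ ⟨v, hv, rfl⟩ g hg
    obtain ⟨k, -, e⟩ := d.conj_of_norm_eq (Eqv.refl _ (φ leechU)) (Eqv.refl _ (φ v))
      (sqNorm_leechU.trans hv.symm) (.inl hv)
    rw [← e] at hg
    exact (K.mul_mem_cancel_left (inv_mem k.2)).1 (hu _ (by simpa [mul_assoc] using hg))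
  · obtain ⟨n, e⟩ := d.exists_lift XSC.C1.b0
    refine ⟨n, ?_⟩
    rintro _ ⟨v, hv, rfl⟩
    have h1 := d.conj_eqv e (Eqv.refl _ (φ v))
    refine ⟨(d.conj_eqv e h1).trans d.z_sq (d.eqv_iff.2 ⟨-v, ?_⟩), fun f => ?_⟩
    · rw [smul_of_sq XSC.C1.b0_sq, sub_eq_add_neg]
    · obtain ⟨y, hy⟩ := d.eqv_iff.1 ((h1.symm d.z_sq).trans d.z_sq f)
      have h2 := dot_of_sq XSC.C1.b0_sq v v
      have h3 : sqNorm (v : GolayPt → ℤ) = 32 := hv
      rcases eq_or_neg_of_congr (by rw [sqNorm_smul]; omega) (by omega) hy with a | a <;>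
        simp only [a, AddSubgroup.coe_neg, dotInt_neg_left, dotInt_neg_right, dotInt_self] at h2 <;>
        omega
  · have := card_le_eight d hz' h1 h2
    rw [d.card]
    nlinarith

end Cfsg.Agent.Std2B
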