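import Cfsg.Agent.Std2B.Par

/-! A short involution of `Q` fixes a unique coset of `K`. -/

set_option autoImplicit false

namespace Cfsg.Agent.Std2B

open Cfsg Cfsg.Spor Cfsg.Agent.TT Cfsg.Agent.LES Cfsg.Agent.Mon Cfsg.Agent.Spor Cfsg.Agent.Spor.Leech Subgroup

section

variable {K : Type*} [Group K] {z : K} {Q : Subgroup K}
  {π : centralizer ({z} : Set K) →* Co1} {φ : leechLattice → K}

theorem exists_comm_short (d : MonData z Q π φ) {s : centralizer ({z} : Set K)} {h : Co0}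
    (e : (h : Co1) = π s) (hh : h * h = 1) : ∃ u v, Eqv z u (φ v) ∧ sqNorm (v : GolayPt → ℤ) = 32 ∧
      (s : K) * u = u * s := by
  obtain ⟨x, y, a, b, c, f, g⟩ := exists_tri hh
  rcases (d.conj_eqv e (Eqv.refl _ (φ x))).trans d.z_sq (d.eqv_iff.2 f) with f | f
  · exact ⟨_, x, Eqv.refl _ _, a, comm_of_conj_eq f⟩
  rcases (d.conj_eqv e (Eqv.refl _ (φ y))).trans d.z_sq (d.eqv_iff.2 g) with g | g
  · exact ⟨_, y, Eqv.refl _ _, b, comm_of_conj_eq g⟩
  refine ⟨_, _, (d.add x y).symm d.z_sq, c, comm_of_conj_eq ?_⟩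
  rw [← conj_mul, f, g, d.lx.z_comm _ (d.mem y), ← mul_assoc, d.lx.toXS.mul_z_z]

theorem comm_eqv (d : MonData z Q π φ) {s : centralizer ({z} : Set K)} {h : Co0}
    (e : (h : Co1) = π s) {q : K} {v : leechLattice} (hq : Eqv z q (φ v)) :
    Eqv z (s * q * (s : K)⁻¹ * q⁻¹) (φ (h • v + v)) :=
  (eqv_mul d.lx.toXS (d.mem v) (d.conj_eqv e hq) (Eqv.trans d.z_sq
    (d.lx.toXS.inv (d.mem_of_eqv hq)) hq)).trans d.z_sq ((d.add _ _).symm d.z_sq)

/-- Over an element of square `-1` an involution `s` and `z` generate with the `Q`-conjugates of `s`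
an abelian group of order at least `2^14`. -/
theorem exists_big [Finite K] (d : MonData z Q π φ) {s : centralizer ({z} : Set K)} {h : Co0}
    (e : (h : Co1) = π s) (hh : h * h = negOne) (hs : (s : K) * s = 1) (hQ : (s : K) ∉ Q) :
    (∀ q ∈ Q, s * (q * s * q⁻¹) = q * s * q⁻¹ * s) ∧
    2 ^ 14 ≤ Nat.card (closure ({z} ∪ {x | ∃ q ∈ Q, x = q * s * q⁻¹})) := by
  have xs := d.lx.toXS
  have si := inv_eq_of_mul_eq_one_right hs
  refine ⟨fun q hq => ?_, ?_⟩
  · obtain ⟨v, hv⟩ := d.onto q hq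
    have h1 := (d.sq_iff (comm_eqv d e hv)).2 (by
      have := dot_of_sq hh v v
      have := sixteen_dvd_sqNorm v.2
      rw [dotInt_comm (v : GolayPt → ℤ)] at *
      rw [AddSubgroup.coe_add, sqNorm_add, sqNorm_smul]; omega)
    rw [si] at h1
    have h2 : q * s * q⁻¹ * (q * s * q⁻¹) = 1 := by rw [conj_mul, hs, mul_one, mul_inv_cancel]
    rw [← inv_eq_of_mul_eq_one_right (show s * (q * s * q⁻¹) * (s * (q * s * q⁻¹)) = 1 by
      simpa only [mul_assoc] using h1), mul_inv_rev, si, inv_eq_of_mul_eq_one_right h2]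
  set A := closure ({z} ∪ {x | ∃ q ∈ Q, x = q * s * q⁻¹})
  have zA : z ∈ A := subset_closure (.inl rfl)
  have sA : (s : K) ∈ A := subset_closure (.inr ⟨1, one_mem _, by simp⟩)
  have cA : ∀ q ∈ Q, s * q * (s : K)⁻¹ * q⁻¹ ∈ Q ⊓ A := fun q hq =>
    ⟨Q.mul_mem (d.lx.norm _ (MonData.comm_z s) q hq) (Q.inv_mem hq), by
      rw [si, mul_assoc, mul_assoc, ← mul_assoc q]
      exact mul_mem sA (subset_closure (.inr ⟨q, hq, rfl⟩))⟩
  have h1 : Q ⊓ centralizer ((Q ⊓ A : Subgroup K) : Set K) ≤ Q ⊓ A := fun x hx => by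
    obtain ⟨v, hv⟩ := d.onto x hx.1
    have h2 := d.lx.norm _ (MonData.comm_z s) x hx.1
    obtain ⟨y, hy⟩ := (d.triv _).1 (((comm_eqv d e hv).symm d.z_sq).trans d.z_sq (eqv_one_iff.2
      (xs.cent _ (cA x hx.1).1 fun q hq => by
        have h3 := d.lx.norm _ (MonData.comm_z s) q hq
        have h4 := cmv_eq_zero.2 (hx.2 _ (cA q hq))
        rw [cmv_mul_left xs h3 (inv_mem hq) hx.1, cmv_eqv xs hx.1 (xs.inv hq), ← cmv_conj (s : K),
          show s * (s * q * (s : K)⁻¹) * (s : K)⁻¹ = s * s * q * ((s : K) * s)⁻¹ by group, hs] at h4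
        rw [← cmv_eq_zero, cmv_mul_left xs h2 (inv_mem hx.1) hq, cmv_eqv xs hq (xs.inv hx.1),
          cmv_comm _ q, cmv_comm _ q]
        simpa using h4)))
    have h3 := congrArg (h • ·) hy
    simp only [smul_add, smul_of_sq hh] at h3
    have h4 : v = y - h • y := two_smul_inj (by rw [sub_add_sub_comm, ← hy, ← h3]; abel)
    exact (hv.trans d.z_sq ((d.eqv_iff.2 ⟨-(h • y), by rw [h4]; abel⟩).trans d.z_sq
      ((comm_eqv d e (Eqv.refl _ (φ y))).symm d.z_sq))).mem ⟨xs.z_mem, zA⟩ (cA _ (d.mem y))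
  have h2 := xs.card_mul_card_centralizer (A := Q ⊓ A) inf_le_left ⟨xs.z_mem, zA⟩
  have h3 := card_le_of_le h1
  have h4 := card_dvd_of_le (inf_le_right : Q ⊓ A ≤ A)
  have h5 : Nat.card (Q ⊓ A : Subgroup K) ≠ Nat.card A := fun f =>
    hQ ((eq_of_le_of_card_ge (inf_le_right : Q ⊓ A ≤ A) f.ge).ge sA).1
  have h6 : 0 < Nat.card A := Nat.card_pos
  obtain ⟨k, hk⟩ := h4
  rw [d.card] at h2
  have h7 : 2 ^ 13 ≤ Nat.card (Q ⊓ A : Subgroup K) := by nlinarith
  have : k ≠ 0 := by rintro rfl; omega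
  have : k ≠ 1 := by rintro rfl; omega
  nlinarith [show 2 ≤ k by omega]

end

variable {C : Type*} [Group C] [Finite C] {K : Subgroup C} {z : K} {Q : Subgroup K}
  {π : centralizer ({z} : Set K) →* Co1} {φ : leechLattice → K}

theorem uniq (d : MonData z Q π φ) (hz : ∀ g : C, g * z = z * g)
    (hN : ∀ g : C, Eqv (z : C) (g * φ leechU * g⁻¹) (φ leechU) → g ∈ K)
    (h32 : ∀ x ∈ Q, IsConj (φ leechU : C) x → ∃ v, Eqv z x (φ v) ∧ sqNorm (v : GolayPt → ℤ) = 32)
    (hnz : ∀ s : K, s * φ leechU = φ leechU * s → IsConj (φ leechU : C) s → IsConj (φ leechU : C) (s * z) → s ∈ Q)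
    {g : C} (hg : g⁻¹ * φ leechU * g ∈ K) : g ∈ K := by
  have hz' : ∀ k : K, k * z = z * k := fun k => Subtype.ext (hz k)
  have xs := d.lx.toXS
  have cz : ∀ x : C, IsConj (φ leechU : C) x → IsConj (φ leechU : C) (x * z) := fun x hx => by
    obtain ⟨k, rfl⟩ := isConj_iff.1 hx
    have := d.ne_of_short (Eqv.refl _ (φ leechU)) (by rw [sqNorm_leechU]; norm_num)
      (by rw [sqNorm_leechU]; norm_num)
    obtain ⟨q, -, e⟩ := xs.exists_conj_eq (d.mem leechU) this.1 this.2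
    refine isConj_iff.2 ⟨k * q, ?_⟩
    calc _ = k * ((q * φ leechU * q⁻¹ : K) : C) * k⁻¹ := by simp [mul_assoc]
      _ = _ := by rw [e, coe_mul, mul_assoc _ k⁻¹, hz k⁻¹]; simp only [mul_assoc]
  let s : K := ⟨_, hg⟩
  have h1 : IsConj (φ leechU : C) s := isConj_iff.2 ⟨g⁻¹, by simp [s]⟩
  have hs : s * s = 1 := Subtype.ext (XSC.C1.sq_of_isConj h1 (congrArg Subtype.val
    ((d.sq_iff (Eqv.refl _ _)).2 (by rw [sqNorm_leechU]; rfl))))
  by_cases hQ : s ∈ Q
  · obtain ⟨v, a, b⟩ := h32 s hQ h1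
    obtain ⟨k, -, e⟩ := d.conj_of_norm_eq (Eqv.refl _ (φ leechU)) a (sqNorm_leechU.trans b.symm) (.inl b)
    refine (K.mul_mem_cancel_right k.2).1 (hN _ (.inl ?_))
    calc _ = g * ((k * φ leechU * k⁻¹ : K) : C) * g⁻¹ := by simp [mul_assoc]
      _ = _ := by rw [e]; simp [s, mul_assoc]
  exfalso
  let s' : centralizer ({z} : Set K) := ⟨s, mem_centralizer_singleton_iff.2 (hz' s)⟩
  obtain ⟨h, e⟩ := QuotientGroup.mk_surjective (π s')
  have cj : ∀ k : K, IsConj (φ leechU : C) (k * s * k⁻¹ : K) := fun k =>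
    h1.trans (isConj_iff.2 ⟨k, rfl⟩)
  rcases sq_of_lift d e (by rw [show (s' : K) * s' = 1 from hs]; exact one_mem _) with hh | hh
  · obtain ⟨u, v, a, b, c⟩ := exists_comm_short d e hh
    obtain ⟨k, -, f⟩ := d.conj_of_norm_eq a (Eqv.refl _ (φ leechU)) (b.trans sqNorm_leechU.symm)
      (.inl sqNorm_leechU)
    have := d.lx.norm _ (hz' k⁻¹) _ (hnz (k * s * k⁻¹) (by rw [← f, conj_mul, conj_mul]; rw [show s * u = u * s from c])
      (cj k) (cz _ (cj k)))
    exact hQ (by simpa [mul_assoc] using this)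
  obtain ⟨h2, h3⟩ := exists_big d e hh hs hQ
  let f : K →* C := (MulAut.conj g).toMonoidHom.comp K.subtype
  have fi : Function.Injective f := (MulAut.conj g).injective.comp K.subtype_injective
  have fz : f z = z := conj_eq_of_comm (hz g)
  have fs : f s = φ leechU := by simp [f, s, mul_assoc]
  have h4 := card_abelian_sq_le (xs.map K.subtype fun _ _ a => Subtype.ext a)
    (A := (closure ({z} ∪ {x | ∃ q ∈ Q, x = q * s * q⁻¹})).map f) (by
      rw [map_le_iff_le_comap, closure_le]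
      rintro x (rfl | ⟨q, hq, rfl⟩)
      · exact ⟨x, xs.z_mem, fz.symm⟩
      · have c1 : f (q * s * q⁻¹) * φ leechU = φ leechU * f (q * s * q⁻¹) := by
          rw [← fs, ← map_mul, ← map_mul, show s * _ = _ from h2 q hq]
        have c2 : f (q * s * q⁻¹) ∈ K := hN _ (.inl (conj_eq_of_comm c1))
        have c3 : IsConj (φ leechU : C) (f (q * s * q⁻¹)) := (cj q).trans (isConj_iff.2 ⟨g, rfl⟩)
        exact ⟨⟨_, c2⟩, hnz ⟨_, c2⟩ (Subtype.ext c1) c3 (cz _ c3), rfl⟩)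
    ⟨z, subset_closure (.inl rfl), fz⟩ (by
      rintro _ ⟨x, hx, rfl⟩ _ ⟨y, hy, rfl⟩
      rw [← map_mul, ← map_mul]
      refine congrArg f (closure_induction₂ (fun a b ha hb => ?_) (by simp) (by simp)
        (fun _ _ _ _ _ _ => comm_mul_left) (fun _ _ _ _ _ _ a b => (comm_mul_left a.symm b.symm).symm)
        (fun _ _ _ _ => comm_inv_left) (fun _ _ _ _ a => (comm_inv_left a.symm).symm) hx hy)
      rcases ha with rfl | ⟨q, hq, rfl⟩
      · exact (hz' b).symm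
      rcases hb with rfl | ⟨r, hr, rfl⟩
      · exact hz' _
      have := congrArg (fun x => q * x * q⁻¹) (h2 _ (mul_mem (inv_mem hq) hr))
      simpa [mul_assoc] using this)
  rw [card_map_of_injective fi, card_map_of_injective K.subtype_injective, d.card] at h4
  nlinarith

end Cfsg.Agent.Std2B
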