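import Cfsg.Agent.Std2B.Nrm
import Cfsg.Agent.Std2B.Fus
import Cfsg.Agent.Std2B.Ext
import Cfsg.Agent.Std2B.Uniq
import Cfsg.Agent.Std2B.Par
import Cfsg.Agent.Mon.LXS

/-! A group with an involution centraliser `2.B` that is not weakly closed is of Monster type. -/

set_option autoImplicit false

namespace Cfsg.Agent.Std2B

open Cfsg Cfsg.Spor Cfsg.Agent.TT Cfsg.Agent.LES Cfsg.Agent.Mon Cfsg.Agent.Spor Cfsg.Agent.Spor.Leech Subgroup

/-- Monster data without the homomorphism to `Co1`. -/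
structure Pre {X : Type*} [Group X] (z : X) (Q : Subgroup X) (φ : leechLattice → X) : Prop where
  xs : XS Q z
  card : Nat.card Q = 2 ^ 25
  mem : ∀ v, φ v ∈ Q
  add : ∀ v w, Eqv z (φ (v + w)) (φ v * φ w)
  onto : ∀ x ∈ Q, ∃ v, Eqv z x (φ v)
  triv : ∀ v, Eqv z (φ v) 1 ↔ ∃ w, v = w + w
  sur : ∀ g, ∃ n, Act z φ n g
  ker : ∀ n, Act z φ n 1 → n ∈ Q

namespace Pre

variable {X : Type*} [Group X] {z : X} {Q : Subgroup X} {φ : leechLattice → X} (p : Pre z Q φ)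
include p

theorem act_Q {n : X} (hn : n ∈ Q) : Act z φ n 1 :=
  ⟨p.xs.z_comm n hn, fun v => by rw [one_smul]; exact Eqv.symm p.xs.z_sq (p.xs.conj hn (p.mem v))⟩

theorem act_iff {n : X} {g g' : Co0} (h : Act z φ n g) : Act z φ n g' ↔ (g' : Co1) = g := by
  have zz := p.xs.z_sq
  refine ⟨fun h' => ?_, fun e => ?_⟩
  · have k := h'.mul zz (h.inv zz)
    obtain ⟨_, _, -, -, -, -, -, -, hF⟩ := exists_cfg sqNorm_leechU sqNorm_leechU' dot_leechU_leechU'
    refine Co.mk_eq_mk_Co1.2 ((hF (g' * g⁻¹) fun v _ _ _ => (p.triv _).1 ?_).imp mul_inv_eq_one.1 mul_inv_eq_iff_eq_mul.1)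
    have a := p.add ((g' * g⁻¹) • v - v) v
    rw [sub_add_cancel] at a
    simpa using ((a.symm zz).trans zz (k.2 v)).mul_right (p.xs.z_comm _ (inv_mem (p.mem v)))
  · rcases Co.mk_eq_mk_Co1.1 e with rfl | rfl
    · exact h
    refine one_mul n ▸ Act.mul zz ⟨by simp, fun v => ?_⟩ h
    have a := (p.add (-v + -v) v).trans zz (((p.triv _).2 ⟨_, rfl⟩).mul_right (p.xs.z_comm _ (p.mem v)))
    simpa using a

theorem monData (ex : ∀ n, n * z = z * n → ∃ g, Act z φ n g) : ∃ π, MonData z Q π φ := by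
  have zz := p.xs.z_sq
  choose γ hγ using fun c : centralizer ({z} : Set X) => ex c (MonData.comm_z c)
  let π : centralizer ({z} : Set X) →* Co1 := MonoidHom.mk' (fun c => (γ c : Co1)) fun a b =>
    (((hγ a).mul zz (hγ b)).imp id id |> p.act_iff).1 (hγ (a * b))
  have sur : Function.Surjective π := fun g => by
    obtain ⟨g, rfl⟩ := QuotientGroup.mk_surjective g
    obtain ⟨n, hn⟩ := p.sur g
    exact ⟨⟨n, mem_centralizer_singleton_iff.2 hn.1⟩, (p.act_iff hn).1 (hγ ⟨n, _⟩)⟩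
  have ker : ∀ c, π c = 1 ↔ (c : X) ∈ Q := fun c =>
    ⟨fun e => p.ker c ((p.act_iff (hγ c)).2 e.symm), fun e => (p.act_iff (p.act_Q e)).1 (hγ c)⟩
  refine ⟨π, ⟨p.xs, fun c hc => p.ker c ⟨(hc z p.xs.z_mem).symm, fun v => .inl ?_⟩, fun c hc x hx => ?_⟩, ?_, p.card, sur,
    ker, p.mem, p.add, p.onto, p.triv, fun c g e => ((p.act_iff (hγ c)).2 e).2⟩
  · rw [one_smul, conj_eq_of_comm (hc _ (p.mem v)).symm]
  · obtain ⟨g, hg⟩ := ex c hc
    obtain ⟨v, hv⟩ := p.onto x hx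
    exact ((hv.conj hc).trans zz ((hg.2 v).symm zz)).mem p.xs.z_mem (p.mem _)
  · rintro _ ⟨c, hc, rfl⟩
    have := (pCore_normal 2 (centralizer ({z} : Set X))).map π sur
    exact (ker c).1 ((Co1_normal_two_eq_bot _ ((Grp.pCore_isPGroup 2 _).map π)).le (mem_map_of_mem π hc))

theorem comap {Y : Type*} [Group Y] {f : Y →* X} (hf : Function.Injective f)
    (hr : ∀ n g, Act z φ n g → n ∈ f.range) : ∃ y χ, f y = z ∧ (∀ v, f (χ v) = φ v) ∧ Pre y (Q.comap f) χ ∧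
      ∀ n g, Act y χ n g ↔ Act z φ (f n) g := by
  have hQ : Q ≤ f.range := fun x hx => hr x 1 (p.act_Q hx)
  obtain ⟨y, rfl⟩ := hQ p.xs.z_mem
  choose χ hχ using fun v => hQ (p.mem v)
  have ev : ∀ {a b}, Eqv y a b ↔ Eqv (f y) (f a) (f b) := by
    intro a b; rw [Eqv, Eqv, ← map_mul, hf.eq_iff, hf.eq_iff]
  have cm : ∀ {a b}, a * b = b * a ↔ f a * f b = f b * f a := by
    intro a b; rw [← map_mul, ← map_mul, hf.eq_iff]
  have ac : ∀ n g, Act y χ n g ↔ Act (f y) φ (f n) g := fun n g =>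
    and_congr cm (forall_congr' fun v => by rw [ev, map_mul, map_mul, map_inv, hχ, hχ])
  refine ⟨y, χ, rfl, hχ, ⟨⟨p.xs.z_mem, fun e => p.xs.z_ne (by simp [e]), hf (by simpa using p.xs.z_sq),
    fun x hx => cm.2 (p.xs.z_comm _ hx), fun a ha b hb => ev.2 (by rw [map_mul, map_mul]; exact p.xs.comm _ ha _ hb), fun x hx hc => ?_, ?_⟩,
    ?_, fun v => mem_comap.2 (hχ v ▸ p.mem v), fun v w => ev.2 (by simpa [hχ] using p.add v w),
    fun x hx => (p.onto _ hx).imp fun v e => ev.2 (hχ v ▸ e), fun v => by rw [ev, hχ, map_one, p.triv], fun g => ?_,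
    fun n hn => p.ker _ ((ac n 1).1 hn)⟩, ac⟩
  · refine (p.xs.cent _ hx fun b hb => ?_).imp (fun e => hf (by simpa using e)) fun e => hf e
    obtain ⟨b, rfl⟩ := hQ hb
    exact cm.1 (hc b hb)
  · obtain ⟨x, a, b, c⟩ := p.xs.nonab
    obtain ⟨x, rfl⟩ := hQ a
    exact ⟨x, a, fun e => b (by simp [e]), fun e => c (e ▸ rfl)⟩
  · rw [← p.card, ← card_map_of_injective hf, map_comap_eq_self hQ]
  · obtain ⟨n, hn⟩ := p.sur g
    obtain ⟨n, rfl⟩ := hr n g hn
    exact ⟨n, (ac n g).2 hn⟩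

end Pre

variable {M : Type} [Group M] [Finite M] {z : M} {Q : Subgroup M} {π : centralizer ({z} : Set M) →* Co1}
  {ψ : leechLattice → M} {G : Type*} [Group G] [Finite G] {j : M → G}

theorem monsterType (h : If0 z Q π ψ) (c : Ch (ψ leechU) j) {g : G}
    (h1 : g * j (ψ leechU) * g⁻¹ ≠ j (ψ leechU))
    (h2 : g * j (ψ leechU) * g⁻¹ * j (ψ leechU) = j (ψ leechU) * (g * j (ψ leechU) * g⁻¹)) :
    IsGroupOfMonsterType G := by
  obtain ⟨n, n1, n2⟩ := fusion h c h1 h2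
  have nc := not_isConj h c n1 n2
  obtain ⟨Θ, e⟩ := exists_ext h c n1 n2
  have d := h.mon
  have xs := h.xs
  have ha : ψ leechU ∈ cA ψ := IsConj.refl _
  have le := XS_le_NS xs (d.mem leechU)
  have za := (xs.z_comm _ (d.mem leechU)).symm
  have tz := e.eq z za rfl
  have ta := e.eq _ rfl za.symm
  have ev : ∀ {x y}, x ∈ NS z (ψ leechU) → y ∈ Q → (Eqv (j z) (Θ x) (Θ y) ↔ Eqv z x y) := fun hx hy =>
    tz ▸ e.eqv_iff (le xs.z_mem) hx (le hy)
  have xs' := tz ▸ e.xs le xs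
  have p : Pre (j z) (e.img Q) fun v => Θ (ψ v) := by
    refine ⟨xs', (e.card_img le).trans d.card, fun v => (e.mem_img_iff (le (d.mem v))).2 (d.mem v), fun v w => ?_,
      fun x hx => ?_, fun v => ?_, exists_act h c e, fun k hk => ?_⟩
    · rw [← e.mul _ (le (d.mem v)) _ (le (d.mem w)), ev (le (d.mem _)) (mul_mem (d.mem v) (d.mem w))]
      exact d.add v w
    · obtain ⟨x, a, rfl⟩ := (e.mem_img le).1 hx
      exact (d.onto x a).imp fun v => (ev (le a) (d.mem v)).2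
    · rw [← e.one, ev (le (d.mem v)) (one_mem _), d.triv]
    · have k2 := fun v : leechLattice => (one_smul Co0 v ▸ hk.2 v).symm xs'.z_sq
      obtain ⟨x, hx, rfl⟩ := e.onto k ((mem_NS xs'.z_sq).2 ⟨hk.1, ta ▸ k2 leechU⟩)
      refine (e.mem_img_iff hx).2 (d.lx.mem_of_trivial fun y hy => ?_)
      obtain ⟨v, hv⟩ := d.onto y hy
      have := k2 v
      rw [← e.conj hx (le (d.mem v)), ev (mul_mem (mul_mem hx (le (d.mem v))) (inv_mem hx)) (d.mem v)] at this
      exact ((hv.conj hx.1).trans xs.z_sq this).trans xs.z_sq (hv.symm xs.z_sq)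
  obtain ⟨k, k1, k2, k3⟩ := d.exists_comm_conj h.nwc (.inl rfl) sqNorm_leechU
  have k4 : Θ (k * z * k⁻¹) = j k * j z * (j k)⁻¹ := by
    rw [e.eq _ (comm_mul_left (comm_mul_left k1 za) (comm_inv_left k1)) (xs.z_comm _ k2),
      c.conj (mem_centralizer_singleton_iff.2 k1) (mem_centralizer_singleton_iff.2 za)]
  have A1 : ∀ x ∈ Q, IsConj (j (ψ leechU)) (Θ x) → x ∈ cA ψ := fun x hx t => by
    obtain ⟨u, hu⟩ := isConj_iff.1 t
    have t1 := (e.sq_iff (le (d.mem leechU))).2 (h.mul_self_A ha)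
    rcases h.cases_Q hx ((e.sq_iff (le hx)).1 (by rw [← hu, conj_mul, ← ta, t1]; simp)) with rfl | a | a
    · rw [e.one, isConj_one_left, ← ta, e.eq_one_iff (le (d.mem _))] at t
      exact absurd t (h.ne_one_A ha)
    · exact a
    refine absurd (t.trans ?_) nc
    rcases (h.mem_B_iff hx).1 a with rfl | ⟨v, v1, v2⟩
    · exact tz ▸ IsConj.refl _
    obtain ⟨w, w1, w2⟩ := d.eqv_64_of_isConj k2 (isConj_iff.2 ⟨k, rfl⟩) k3
    obtain ⟨g, hg⟩ := trans_64 v2 w2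
    obtain ⟨m, hm⟩ := p.sur g
    have a1 := hm.2 v
    rw [hg] at a1
    have a2 := (((ev (le k2) (d.mem w)).2 w1).trans xs'.z_sq a1).trans xs'.z_sq
      ((((ev (le hx) (d.mem v)).2 v1).conj hm.1).symm xs'.z_sq)
    obtain ⟨q, -, hq⟩ := exists_conj_of_eqv xs' ((e.mem_img_iff (le k2)).2 k2)
      (fun t => h.ne_one_B (conj_mem_cB z_mem_cB k) (e.inj _ (le k2) t))
      (fun t => k3 ((e.eq_iff (le k2) (le xs.z_mem)).1 (t.trans tz.symm))) (a2.symm xs'.z_sq)
    exact (isConj_iff.2 ⟨m, rfl⟩).trans (isConj_iff.2 ⟨q * j k, by rw [← hq, k4]; group⟩).symm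
  have A2 : ∀ x, x * ψ leechU = ψ leechU * x → IsConj (j (ψ leechU)) (j x) → x ∈ cA ψ := fun x hx t => by
    obtain ⟨u, hu⟩ := isConj_iff.1 t
    have t1 := (c.sq_iff (mem_centralizer_singleton_iff.2 rfl)).2 (h.mul_self_A ha)
    have hx' := mem_centralizer_singleton_iff.2 hx
    obtain ⟨m, m1, m2⟩ := exists_conj_Q h ((c.sq_iff hx').1 (by rw [← hu, conj_mul, t1]; simp)) hx
    refine (conj_mem_cA_iff m).1 (A1 _ m2 ?_)
    rw [e.eq _ (comm_mul_left (comm_mul_left m1 hx) (comm_inv_left m1)) (xs.z_comm _ m2)]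
    exact t.trans (c.isConj hx' (mul_mem (mul_mem (mem_centralizer_singleton_iff.2 m1) hx')
      (inv_mem (mem_centralizer_singleton_iff.2 m1))) (mem_centralizer_singleton_iff.2 m1) rfl)
  let K : Subgroup (centralizer ({j z} : Set G)) :=
    { carrier := {n | ∃ g, Act (j z) (fun v => Θ (ψ v)) n g}
      one_mem' := ⟨1, act_one⟩
      mul_mem' := fun ⟨_, a⟩ ⟨_, b⟩ => ⟨_, a.mul xs'.z_sq b⟩
      inv_mem' := fun ⟨_, a⟩ => ⟨_, a.inv xs'.z_sq⟩ }
  obtain ⟨y, χ, y1, y2, p', ac⟩ := p.comap (f := (Subgroup.subtype _).comp K.subtype)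
    (Subtype.val_injective.comp Subtype.val_injective) fun n g hn =>
      ⟨⟨⟨n, mem_centralizer_singleton_iff.2 hn.1⟩, g, hn⟩, rfl⟩
  obtain ⟨π', d'⟩ := p'.monData fun n _ => n.2.imp fun g => (ac n g).2
  have y3 : (((y : K) : centralizer ({j z} : Set G)) : G) = j z := y1
  have y4 : ∀ v, (((χ v : K) : centralizer ({j z} : Set G)) : G) = Θ (ψ v) := y2
  have hz : ∀ g : centralizer ({j z} : Set G), g * y = y * g := fun g => Subtype.ext (by
    rw [coe_mul, coe_mul, y3]; exact MonData.comm_z g)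
  have ic : ∀ {x : centralizer ({j z} : Set G)}, IsConj (χ leechU : centralizer ({j z} : Set G)) x →
      IsConj (j (ψ leechU)) x := fun t => by
    have := (Subgroup.subtype _).map_isConj t
    rwa [subtype_apply, y4, ta] at this
  have top := eq_top_of_uniq d' hz fun g => uniq d' hz (fun g hg => ?_) (fun x hx t => ?_) fun s s1 s2 s3 => ?_
  · obtain ⟨π'', d''⟩ := p.monData fun n hn => (top.ge (mem_top ⟨n, mem_centralizer_singleton_iff.2 hn⟩) :)
    obtain ⟨_, t⟩ := d''.isOfMonsterType ⟨j k, k4 ▸ (e.mem_img_iff (le k2)).2 k2,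
      fun t => k3 ((e.eq_iff (le k2) (le xs.z_mem)).1 (k4.trans (t.trans tz.symm)))⟩
    exact ⟨_, _, _, t⟩
  · obtain ⟨x, hx, ex⟩ := e.onto g ((mem_NS xs'.z_sq).2 ⟨MonData.comm_z g, by
      rw [← ta, ← y4]
      exact hg.imp (congrArg Subtype.val) fun t => (congrArg Subtype.val t).trans (by rw [coe_mul, y3])⟩)
    obtain ⟨u, hu⟩ := QuotientGroup.mk_surjective (π ⟨x, mem_centralizer_singleton_iff.2 hx.1⟩)
    refine ⟨u, MonData.comm_z g, fun v => ?_⟩
    rw [← ex, ← e.conj hx (le (d.mem v)), ← tz, e.eqv_iff (le xs.z_mem) (le (d.mem _))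
      (le (d.lx.norm _ hx.1 _ (d.mem v)))]
    exact d.conj _ u hu v
  · obtain ⟨q, q1, q2⟩ := (e.mem_img le).1 hx
    obtain ⟨v, v1, v2⟩ := (h.mem_A_iff q1).1 (A1 q q1 (q2.symm ▸ ic t))
    have := (ev (le q1) (d.mem v)).2 v1
    rw [q2, ← y4] at this
    exact ⟨v, this.imp (fun t => Subtype.ext (Subtype.ext t)) fun t => Subtype.ext (Subtype.ext
      (t.trans (by rw [coe_mul, coe_mul, y3]))), v2⟩
  · obtain ⟨x, x1, x2⟩ := c.onto (s : centralizer ({j z} : Set G)) (by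
      rw [← ta, ← y4]; exact congrArg (fun t : K => ((t : centralizer ({j z} : Set G)) : G)) s1)
    have m1 := mem_centralizer_singleton_iff.2 x1
    have m2 := mem_centralizer_singleton_iff.2 za
    have x3 := (c.comm_iff m1 m2).1 (x2.symm ▸ MonData.comm_z (s : centralizer ({j z} : Set G)))
    have x4 : x ∈ Q := by_contra fun t => h.nz ⟨x, mem_centralizer_singleton_iff.2 x3⟩ (A2 x x1 (x2.symm ▸ ic s2)) t
      (A2 _ (comm_mul_left x1 za) (by have := ic s3; rwa [coe_mul, y3, ← x2, ← c.mul _ m1 _ m2] at this))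
    exact (e.mem_img le).2 ⟨x, x4, (e.eq x x1 x3).trans x2⟩

end Cfsg.Agent.Std2B
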