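import Cfsg.Agent.Std2B.NrmA
import Cfsg.Agent.Std2B.Lat
import Cfsg.Agent.MonU.BLoc

/-! All of `Co1` acts on the extraspecial group of `G`. -/

set_option autoImplicit false

namespace Cfsg.Agent.Std2B

open Cfsg Cfsg.Spor Cfsg.Agent.TT Cfsg.Agent.LES Cfsg.Agent.Mon Cfsg.Agent.Spor Cfsg.Agent.Spor.Leech Subgroup MonU

variable {M : Type} [Group M] [Finite M] {z : M} {Q : Subgroup M} {π : centralizer ({z} : Set M) →* Co1}
  {ψ : leechLattice → M} {G : Type*} [Group G] {j Θ : M → G} {a w w' m : M} {n : G}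

/-- `n` acts on the chart of `C(a, w)` as `m`. -/
structure Mv (j : M → G) (z a w m : M) (n : G) : Prop where
  mz : m * z = z * m
  mw : m * w = w * m
  ma : m * a * m⁻¹ = a * w
  eq : ∀ x, x * a = a * x → x * w = w * x → n * j x * n⁻¹ = j (m * x * m⁻¹)

omit [Finite M] in
theorem conj_comm_NS {x : M} (hm : m ∈ NS z a) (h1 : x * a = a * x) (h2 : x * z = z * x) :
    m * x * m⁻¹ * a = a * (m * x * m⁻¹) ∧ m * x * m⁻¹ * z = z * (m * x * m⁻¹) := by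
  obtain ⟨k1, _, ⟨k, rfl⟩, k2⟩ := inv_mem hm
  have := Mon.If0.conj_comm m ((Commute.mul_right h1 (Commute.zpow_right h2 k)).eq)
  rw [← k2] at this
  exact ⟨by simpa [mul_assoc] using this, comm_mul_left (comm_mul_left hm.1 h2) k1⟩

variable (h : If0 z Q π ψ) (ha : a ∈ cA ψ) (aQ : a ∈ Q) (c : Ch a j) (e : Ext z a j Θ)
include h ha aQ c e

theorem exists_mv (hw : w ∈ cB z) (wQ : w ∈ Q) (aw : a * w ∈ cA ψ) (hw' : w' ∈ cB z) (wQ' : w' ∈ Q)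
    (aw' : a * w' ∈ cA ψ) (h1 : a * w' * w ∈ cA ψ) (h2 : w * w' ∈ cB z) (n1 : w ≠ z) (n2 : w' ≠ z) (n3 : w * w' ≠ z) :
    ∃ m n, Mv j z a w m n ∧ m * w' = w' * m := by
  have i1 := h.inQ_of_mul hw ha aw
  obtain ⟨σ, s1, rfl⟩ := Bs.exists_k h ha aQ i1
  have i2 := h.inQ_iff.1 (h.inQ_symm hw (h.inQ_z.2 wQ))
  have i3 : σ⁻¹ * w' * σ ∈ Q := by
    have := mul_mem (inv_mem aQ) (h.inQ_iff.1 (h.inQ_of_mul hw aw' h1))
    rwa [mul_assoc, mul_assoc a, ← mul_assoc σ⁻¹, comm_inv_left s1, mul_assoc a, inv_mul_cancel_left,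
      ← mul_assoc] at this
  have i4 : ∀ x ∈ cB z, x ∈ Q → x ≠ z → ∀ y, σ * y * σ⁻¹ = x ∨ σ * y * σ⁻¹ = x * z → a ≠ y := by
    rintro x x1 x2 x3 _ k rfl
    rw [conj_eq_of_comm s1] at k
    rcases k with rfl | k
    exacts [h.disj ha x1, h.disj ha (k ▸ Bs.mul_z_B h x2 x1 x3)]
  have i5 : z * (σ * z * σ⁻¹) = σ * z * σ⁻¹ * z := (h.xs.z_comm _ wQ).symm
  obtain ⟨q, hq, q1, q2, q3⟩ : ∃ q ∈ Q, q * (σ⁻¹ * z * σ) = σ⁻¹ * z * σ * q ∧
      q * (σ⁻¹ * w' * σ) = σ⁻¹ * w' * σ * q ∧ q * a ≠ a * q := by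
    by_contra! k
    have i6 := h.comm_of_mul (h.mul_self_B hw) (h.mul_self_B hw') (h.mul_self_B h2)
    rcases three h.xs i2 i3 (by simp [mul_assoc, ← mul_assoc z, h.xs.z_sq]) aQ k with
      (k | k) | (k | k) | (k | k) | k | k
    · exact h.ne_one_A ha k
    · exact h.ne_z ha (by simpa using k)
    · exact h.disj ha (k ▸ by simpa using conj_mem_cB z_mem_cB σ⁻¹)
    · exact i4 _ hw wQ n1 _ (.inr (by rw [← i5]; group)) k
    · exact i4 _ hw' wQ' n2 _ (.inl (by group)) k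
    · exact i4 _ h2 (mul_mem wQ wQ') n3 _ (.inl (by rw [i6]; group)) k
    · exact i4 _ hw' wQ' n2 _ (.inr (by rw [h.xs.z_comm _ wQ']; group)) k
    · exact i4 _ h2 (mul_mem wQ wQ') n3 _ (.inr (by rw [h.xs.z_comm _ (mul_mem wQ wQ'), i6]; group)) k
  have hσ := mem_centralizer_singleton_iff.2 s1
  have qN := XS_le_NS h.xs aQ hq
  refine ⟨σ * q * σ⁻¹, j σ * Θ q * (j σ)⁻¹, ⟨?_, by rw [conj_mul, conj_mul, h.xs.z_comm q hq], ?_, fun x x1 x2 => ?_⟩, ?_⟩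
  · simpa [mul_assoc] using If0.conj_comm σ q1
  · rw [← conj_eq_of_comm s1, conj_inv, conj_mul, conj_mul, conj_mul, h.xs.conj_of_ne hq aQ q3]
  · obtain ⟨x, rfl⟩ := (MulAut.conj σ).surjective x
    have y1 : x * a = a * x := by
      have := If0.conj_comm σ⁻¹ x1
      rw [conj_eq_of_comm (comm_inv_left s1)] at this
      simpa [mul_assoc] using this
    have y2 : x * z = z * x := (MulAut.conj σ).injective (by simpa using x2)
    have y3 := conj_comm_NS qN y1 y2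
    rw [MulAut.conj_apply, c.conj hσ (mem_centralizer_singleton_iff.2 y1), conj_inv, conj_inv, conj_mul, conj_mul,
      conj_mul, conj_mul, c.conj hσ (mem_centralizer_singleton_iff.2 y3.1), ← e.eq _ y3.1 y3.2,
      e.conj qN (mem_NS_of_comm y1 y2), e.eq _ y1 y2]
  · simpa [mul_assoc] using If0.conj_comm σ q2

omit ha c in
theorem exists_beta (v : Mv j z a w m n) (wQ : w ∈ Q) (ww : w * w = 1) (aw : a * w = w * a)
    (hF : ∀ k, k * z = z * k → (∀ x ∈ Q, x * a = a * x → x * w = w * x → Eqv z (k * x * k⁻¹) x) → k ∈ Q) :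
    n * j z = j z * n ∧ ∃ β, PH Q β ∧ (∀ x ∈ Q, β x ∈ Q) ∧ β z = z ∧
      (∀ x ∈ Q, n * Θ x * n⁻¹ = Θ (m * β x * m⁻¹)) ∧ ∀ x ∈ Q, x * a = a * x → x * w = w * x → β x = x := by
  have xs := h.xs
  have le := XS_le_NS xs aQ
  have za := (xs.z_comm a aQ).symm
  have nz : n * j z = j z * n := comm_of_conj_eq (by rw [v.eq z za (xs.z_comm w wQ).symm, conj_eq_of_comm v.mz])
  have tz := e.eq z za rfl
  have zz : j z * j z = 1 := tz ▸ (e.sq_iff (le xs.z_mem)).2 xs.z_sq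
  have mN : m⁻¹ ∈ NS w a := inv_mem ((mem_NS ww).2 ⟨v.mw, .inr v.ma⟩)
  have k1 : ∀ x ∈ Q, ∀ p ∈ Q, p * a = a * p → p * w = w * p → Eqv (j z)
      (n * Θ x * n⁻¹ * j (m * p * m⁻¹) * (n * Θ x * n⁻¹)⁻¹) (j (m * p * m⁻¹)) := fun x hx p hp p1 p2 => by
    rw [← v.eq p p1 p2, conj_inv, conj_mul, conj_mul, ← e.eq p p1 (xs.z_comm p hp), ← e.conj (le hx) (le hp)]
    refine Eqv.conj nz ?_
    rw [← tz, e.eqv_iff (le xs.z_mem) (le (mul_mem (mul_mem hx hp) (inv_mem hx))) (le hp)]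
    exact xs.conj hx hp
  have k2 : ∀ x ∈ Q, ∃ y ∈ Q, n * Θ x * n⁻¹ = Θ (m * y * m⁻¹) := fun x hx => by
    have gz : n * Θ x * n⁻¹ * j z = j z * (n * Θ x * n⁻¹) := comm_mul_left (comm_mul_left nz
      (tz ▸ (e.comm_iff (le hx) (le xs.z_mem)).2 (xs.z_comm x hx))) (comm_inv_left nz)
    have := k1 x hx _ (mul_mem aQ wQ) (comm_mul_left rfl aw.symm) (comm_mul_left aw rfl)
    rw [← conj_mul, v.ma, conj_eq_of_comm v.mw, mul_assoc a, ww, mul_one] at this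
    obtain ⟨y, hy, ey⟩ := e.onto _ ((mem_NS zz).2 ⟨gz, this⟩)
    refine ⟨m⁻¹ * y * m⁻¹⁻¹, h.mon.lx.norm _ (comm_inv_left v.mz) _ (hF y hy.1 fun p hp p1 p2 => ?_), by
      rw [← ey]; congr 1; group⟩
    have p3 := conj_comm_NS mN p1 p2
    have := k1 x hx _ (h.mon.lx.norm _ (comm_inv_left v.mz) _ hp) p3.1 p3.2
    rwa [show m * (m⁻¹ * p * m⁻¹⁻¹) * m⁻¹ = p by group, ← ey, ← e.eq p p1 (xs.z_comm p hp), ← e.conj hy (le hp), ← tz,
      e.eqv_iff (le xs.z_mem) (mul_mem (mul_mem hy (le hp)) (inv_mem hy)) (le hp)] at this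
  choose! β b1 b2 using k2
  have mQ := fun x hx => le (h.mon.lx.norm m v.mz x hx)
  have b3 : ∀ x ∈ Q, x * a = a * x → x * w = w * x → β x = x := fun x hx x1 x2 => by
    have := b2 x hx
    have x3 := conj_comm_NS (inv_mem mN) x1 x2
    rw [inv_inv] at x3
    rw [e.eq x x1 (xs.z_comm x hx), v.eq x x1 x2, ← e.eq _ x3.1 (mQ x hx).1, e.eq_iff (mQ x hx) (mQ _ (b1 x hx))] at this
    simpa using this.symm
  refine ⟨nz, β, ⟨fun x hx y hy => ?_, fun x hx k => ?_⟩, b1, b3 z xs.z_mem za (xs.z_comm w wQ).symm, b2, b3⟩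
  · have := b2 _ (mul_mem hx hy)
    rw [e.mul _ (le hx) _ (le hy), ← conj_mul, b2 x hx, b2 y hy, ← e.mul _ (mQ _ (b1 x hx)) _ (mQ _ (b1 y hy)), conj_mul,
      e.eq_iff (mQ _ (mul_mem (b1 x hx) (b1 y hy))) (mQ _ (b1 _ (mul_mem hx hy)))] at this
    simpa using this.symm
  · have := b2 x hx
    rw [k, mul_one, mul_inv_cancel, e.one] at this
    exact e.inj x (le hx) (by simpa using this)

theorem tri (hw : w ∈ cB z) (wQ : w ∈ Q) (aw : a * w ∈ cA ψ) (hw' : w' ∈ cB z) (wQ' : w' ∈ Q)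
    (aw' : a * w' ∈ cA ψ) (h1 : a * (w' * w) ∈ cA ψ) (h2 : w' * w ∈ cB z) (r1 : w ≠ z) (r2 : w' ≠ z) (r3 : w' * w ≠ z)
    (hF : ∀ k, k * z = z * k → (∀ x ∈ Q, x * a = a * x → x * w = w * x → x * w' = w' * x →
      Eqv z (k * x * k⁻¹) x) → k ∈ Q) : ∃ m n, m * z = z * m ∧ m * a * m⁻¹ = a * w ∧ n * j z = j z * n ∧
      ∀ x ∈ Q, Eqv (j z) (Θ (m * x * m⁻¹)) (n * Θ x * n⁻¹) := by
  have xs := h.xs
  have le := XS_le_NS xs aQ
  have aa := h.mul_self_A ha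
  have ww := h.mul_self_B hw
  have ww' := h.mul_self_B hw'
  have c1 := h.comm_of_mul aa ww (h.mul_self_A aw)
  have c2 := h.comm_of_mul aa ww' (h.mul_self_A aw')
  have c3 := h.comm_of_mul ww' ww (h.mul_self_B h2)
  have c4 : a * (w' * w) = w' * w * a := (comm_mul_left c2.symm c1.symm).symm
  have e1 : w' * w * w' = w := by rw [c3, mul_assoc, ww', mul_one]
  obtain ⟨m1, n1, v1, p1⟩ := exists_mv h ha aQ c e hw' wQ' aw' hw wQ aw (by rwa [mul_assoc, ← c3]) h2 r2 r1 r3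
  obtain ⟨m2, n2, v2, p2⟩ := exists_mv h ha aQ c e hw wQ aw hw' wQ' aw' (by rwa [mul_assoc]) (c3 ▸ h2) r1 r2 (c3 ▸ r3)
  obtain ⟨m3, n3, v3, p3⟩ := exists_mv h ha aQ c e h2 (mul_mem wQ' wQ) h1 hw' wQ' aw'
    (by rwa [mul_assoc, ← mul_assoc w', ww', one_mul]) (e1.symm ▸ hw) r3 r2 (e1.symm ▸ r1)
  obtain ⟨z1, β1, a1, b1, g1, d1, f1⟩ := exists_beta h aQ e v1 wQ' ww' c2 fun k k1 k2 =>
    hF k k1 fun x x1 x2 _ => k2 x x1 x2
  obtain ⟨z2, β2, a2, b2, g2, d2, f2⟩ := exists_beta h aQ e v2 wQ ww c1 fun k k1 k2 =>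
    hF k k1 fun x x1 x2 x3 _ => k2 x x1 x2 x3
  obtain ⟨z3, β3, a3, b3, g3, d3, f3⟩ := exists_beta h aQ e v3 (mul_mem wQ' wQ) (h.mul_self_B h2) c4 fun k k1 k2 =>
    hF k k1 fun x x1 x2 x3 x4 => k2 x x1 x2 (comm_mul_left x4.symm x3.symm).symm
  have nQ := h.mon.lx.norm
  have za := (xs.z_comm a aQ).symm
  have tz := e.eq z za rfl
  have zz : j z * j z = 1 := tz ▸ (e.sq_iff (le xs.z_mem)).2 xs.z_sq
  have mz := comm_mul_left (comm_mul_left v3.mz v2.mz) v1.mz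
  have tot : ∀ x ∈ Q, n3 * n2 * n1 * Θ x * (n3 * n2 * n1)⁻¹ =
      Θ (m3 * β3 (m2 * β2 (m1 * β1 x * m1⁻¹) * m2⁻¹) * m3⁻¹) := fun x hx => by
    have y1 := nQ _ v1.mz _ (b1 x hx)
    rw [← d3 _ (nQ _ v2.mz _ (b2 _ y1)), ← d2 _ y1, ← d1 _ hx]; group
  have fx : ∀ x ∈ Q, x * a = a * x → x * w = w * x → x * w' = w' * x → m3 * β3 (m2 * β2 (m1 * β1 x * m1⁻¹) * m2⁻¹) * m3⁻¹ =
      m3 * m2 * m1 * x * (m3 * m2 * m1)⁻¹ := fun x hx x1 x2 x3 => by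
    have y1 := conj_comm_NS ((mem_NS ww').2 ⟨v1.mw, .inr v1.ma⟩) x1 x3
    have y2 := comm_mul_left (comm_mul_left p1 x2) (comm_inv_left p1)
    have y3 := conj_comm_NS ((mem_NS ww).2 ⟨v2.mw, .inr v2.ma⟩) y1.1 y2
    have y4 := comm_mul_left (comm_mul_left p2 y1.2) (comm_inv_left p2)
    have y5 := nQ _ v1.mz _ hx
    rw [f1 x hx x1 x3, f2 _ y5 y1.1 y2, f3 _ (nQ _ v2.mz _ y5) y3.1 (comm_mul_left y4.symm y3.2.symm).symm]; group
  have p4 : m3 * w = w * m3 := e1 ▸ (comm_mul_left v3.mw.symm p3.symm).symm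
  have ca : m3 * m2 * m1 * a * (m3 * m2 * m1)⁻¹ = a := by
    calc _ = m3 * (m2 * (m1 * a * m1⁻¹) * m2⁻¹) * m3⁻¹ := by group
      _ = a * (w' * w) * w * w' := by
        rw [v1.ma, ← conj_mul (b := m2), v2.ma, conj_eq_of_comm p2, ← conj_mul, ← conj_mul, v3.ma, conj_eq_of_comm p4,
          conj_eq_of_comm p3]
      _ = a := by simp only [mul_assoc, ← mul_assoc w w, ww, one_mul, ww', mul_one]
  obtain ⟨k, hk, ek⟩ := e.onto (n3 * n2 * n1) (mem_NS_of_comm (comm_of_conj_eq (by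
    rw [← e.eq a rfl za.symm, tot a aQ, fx a aQ rfl c1 c2, ca])) (comm_mul_left (comm_mul_left z3 z2) z1))
  have tot' : ∀ x ∈ Q, k * x * k⁻¹ = m3 * β3 (m2 * β2 (m1 * β1 x * m1⁻¹) * m2⁻¹) * m3⁻¹ := fun x hx => by
    rw [← e.eq_iff (le (nQ _ hk.1 _ hx)) (le (nQ _ v3.mz _ (b3 _ (nQ _ v2.mz _ (b2 _ (nQ _ v1.mz _ (b1 x hx))))))),
      ← tot x hx, e.conj hk (le hx), ek]
  have kQ := hF ((m3 * m2 * m1)⁻¹ * k) (comm_mul_left (comm_inv_left mz) hk.1) fun x hx x1 x2 x3 => .inl (by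
    rw [mul_inv_rev _ k, mul_assoc, mul_assoc, ← mul_assoc x, ← mul_assoc k, ← mul_assoc k, tot' x hx, fx x hx x1 x2 x3]
    group)
  obtain ⟨x, hx, x1, x2, x3⟩ : ∃ x ∈ Q, x * a = a * x ∧ x * w = w * x ∧ x * w' ≠ w' * x := by
    by_contra! k
    rcases three xs aQ wQ aa wQ' k with (k | k) | (k | k) | (k | k) | k | k
    · exact h.ne_one_B hw' k
    · exact r2 (by simpa using k)
    · exact h.disj ha (k ▸ hw')
    · exact h.disj (h.mul_z_mem_A ha aQ) (k ▸ hw')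
    · exact h.ne_one_B h2 (k ▸ ww')
    · exact r3 (by rw [k, ← xs.z_comm w wQ |>.symm, mul_assoc, ww, mul_one])
    · exact h.disj aw (k ▸ hw')
    · exact h.disj (h.mul_z_mem_A aw (mul_mem aQ wQ)) (k ▸ hw')
  have cj : ∀ {m y p p' : M}, m * p * m⁻¹ = p' → (m * y * m⁻¹ * p' = p' * (m * y * m⁻¹) ↔ y * p = p * y) := by
    rintro m y p _ rfl
    rw [conj_mul, conj_mul, mul_left_inj, mul_right_inj]
  have cb : ∀ {β y p}, PH Q β → y ∈ Q → p ∈ Q → β p = p → (β y * p = p * β y ↔ y * p = p * y) :=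
    fun b hy hp k => by rw [← b.comm_iff hy hp, k]
  have cc : ∀ {y p q : M}, y * (p * q) = p * q * y → y * p = p * y → y * q = q * y := fun k1 k2 => by
    rwa [← mul_assoc, k2, mul_assoc, mul_assoc, mul_right_inj] at k1
  have o1 := delta xs a1 b1 g1 aQ wQ' aa ww' c2 f1 hx x1 x3
  set y := m1 * β1 x * m1⁻¹ with hy
  have yQ : y ∈ Q := nQ _ v1.mz _ (b1 x hx)
  have y1 : y * w = w * y := (cj (conj_eq_of_comm p1)).2 ((cb a1 hx wQ (f1 w wQ c1.symm c3.symm)).2 x2)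
  have y2 : y * w' ≠ w' * y := fun k => x3 ((cb a1 hx wQ' (f1 w' wQ' c2.symm rfl)).1 ((cj (conj_eq_of_comm v1.mw)).1 k))
  have y3 : y * a ≠ a * y := fun k => y2 (cc ((cj v1.ma).2 ((cb a1 hx aQ (f1 a aQ rfl c2)).2 x1)) k)
  have o2 := delta xs a2 b2 g2 wQ aQ ww aa c1.symm (fun q q1 q2 q3 => f2 q q1 q3 q2) yQ y1 y3
  set u := m2 * β2 y * m2⁻¹ with hu
  have uQ : u ∈ Q := nQ _ v2.mz _ (b2 y yQ)
  have u1 : u * w = w * u := (cj (conj_eq_of_comm v2.mw)).2 ((cb a2 yQ wQ (f2 w wQ c1.symm rfl)).2 y1)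
  have u2 : w' * u ≠ u * w' := fun k => y2 ((cb a2 yQ wQ' (f2 w' wQ' c2.symm c3)).1 ((cj (conj_eq_of_comm p2)).1 k.symm))
  have u3 : a * u ≠ u * a := fun k => y3 ((cb a2 yQ aQ (f2 a aQ rfl c1)).1 ((cj v2.ma).1 (comm_mul_left k u1.symm).symm))
  have o3 := delta xs a3 b3 g3 (mul_mem aQ (mul_mem wQ' wQ)) aQ (h.mul_self_A h1) aa (comm_mul_left rfl c4.symm)
    (fun q q1 q2 q3 => f3 q q1 q3 (cc q2 q3)) uQ (by
      rw [← mul_assoc a]; exact (comm_mul_left (xs.mul_comm_of_not_comm uQ aQ wQ' u3 u2) u1.symm).symm) u3.symm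
  have V1 : z ∈ closure {z, a} := subset_closure (.inl rfl)
  have V2 : a ∈ closure {z, a} := subset_closure (.inr rfl)
  have o4 : (m2 * m1)⁻¹ * (u⁻¹ * β3 u) * (m2 * m1)⁻¹⁻¹ ∈ closure {z, a} := by
    have t1 := conj_eq_of_comm (comm_inv_left (comm_mul_left v2.mz v1.mz))
    have t2 : (m2 * m1)⁻¹ * (a * (w' * w)) * (m2 * m1)⁻¹⁻¹ = a := by
      rw [c3, ← mul_assoc a, ← v2.ma, ← conj_eq_of_comm p2, conj_mul, ← v1.ma]; group
    rcases (mem_closure_four xs.z_sq (h.mul_self_A h1) (xs.z_comm _ (mul_mem aQ (mul_mem wQ' wQ)))).1 o3 with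
      k | k | k | k <;> rw [k]
    exacts [by simp, t1.symm ▸ V1, t2.symm ▸ V2, by rw [← conj_mul, t1, t2]; exact mul_mem V1 V2]
  have o5 : x⁻¹ * ((m3 * m2 * m1)⁻¹ * k * x * ((m3 * m2 * m1)⁻¹ * k)⁻¹) ∈ closure {z, a} := by
    rcases xs.conj kQ hx with t | t <;> rw [t]
    exacts [by simp, by simpa using V1]
  have o6 : m1⁻¹ * (y⁻¹ * β2 y) * m1⁻¹⁻¹ ∈ closure {z, a} := by
    convert mul_mem (mul_mem (inv_mem o1) o5) (inv_mem o4) using 1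
    rw [mul_inv_rev _ k, mul_assoc _ k, mul_assoc _ (k * x), ← mul_assoc (k * x), tot' x hx, hu, hy]
    group
  refine ⟨m2, n2, v2.mz, v2.ma, z2, fun p hp => ?_⟩
  have o7 : Eqv z (β2 y) y := by
    have t1 := conj_eq_of_comm (comm_inv_left v1.mz)
    have t2 := conj_eq_of_comm (comm_inv_left p1)
    have t3 : ∀ q ∈ cB z, q ≠ z → q ∉ closure {z, a} := fun q q1 q2 q3 => by
      rcases (mem_closure_four xs.z_sq aa za.symm).1 q3 with k | k | k | k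
      exacts [h.ne_one_B q1 k, q2 k, h.disj ha (k ▸ q1), h.disj (h.mul_z_mem_A ha aQ) (za ▸ k ▸ q1)]
    rcases (mem_closure_four xs.z_sq ww (xs.z_comm _ wQ)).1 o2 with k | k | k | k
    · exact .inl (inv_mul_eq_one.1 k).symm
    · exact .inr (inv_mul_eq_iff_eq_mul.1 k)
    · exact absurd (by rwa [k, t2] at o6) (t3 w hw r1)
    · rw [k, ← conj_mul, t1, t2] at o6
      exact absurd ((mul_mem_cancel_left V1).1 o6) (t3 w hw r1)
  rw [d2 p hp, ← tz, e.eqv_iff (le xs.z_mem) (le (nQ _ v2.mz _ hp)) (le (nQ _ v2.mz _ (b2 p hp)))]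
  exact ((triv xs a2 b2 g2 aQ wQ ww f2 yQ y3 y1 o7 hp).symm xs.z_sq).conj v2.mz

omit ha aQ c e in
theorem exists_act [Finite G] (c : Ch (ψ leechU) j) {Θ : M → G} (e : Ext z (ψ leechU) j Θ) (g : Co0) :
    ∃ n, Act (j z) (fun v => Θ (ψ v)) n g := by
  have d := h.mon
  have xs := h.xs
  have ha : ψ leechU ∈ cA ψ := IsConj.refl _
  have le := XS_le_NS xs (d.mem leechU)
  have tz := e.eq z (xs.z_comm _ (d.mem leechU)).symm rfl
  have zz : j z * j z = 1 := tz ▸ (e.sq_iff (le xs.z_mem)).2 xs.z_sq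
  have ev : ∀ {x y}, x ∈ Q → y ∈ Q → Eqv z x y → Eqv (j z) (Θ x) (Θ y) := fun hx hy k =>
    tz ▸ (e.eqv_iff (le xs.z_mem) (le hx) (le hy)).2 k
  let Γ : Subgroup Co0 :=
    { carrier := {g | ∃ n, Act (j z) (fun v => Θ (ψ v)) n g}
      one_mem' := ⟨1, act_one⟩
      mul_mem' := fun ⟨_, a⟩ ⟨_, b⟩ => ⟨_, a.mul zz b⟩
      inv_mem' := fun ⟨_, a⟩ => ⟨_, a.inv zz⟩ }
  have h0 : negOne ∈ Γ := ⟨1, by simp, fun v => by
    simpa using ev (d.mem _) (d.mem _) ((h.eqv_neg (.inl rfl)).symm xs.z_sq)⟩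
  refine (top_of_orth h0 (fun g hg => ?_) fun u hu hd => ?_).ge (mem_top g)
  · obtain ⟨k, k1, k2⟩ := d.exists_comm_of_congr (g := g) (.inl rfl) (h.ne_one_A ha) (h.ne_z ha) ⟨0, by simp [hg]⟩
    have kN := mem_NS_of_comm k2 (MonData.comm_z k)
    refine ⟨Θ k, tz ▸ (e.comm_iff kN (le xs.z_mem)).2 kN.1, fun v => ?_⟩
    rw [← e.conj kN (le (d.mem v))]
    exact ev (d.mem _) (d.lx.norm _ kN.1 _ (d.mem v)) (d.conj k g k1 v)
  obtain ⟨u₁, u₃, n1, n3, d1, d3, d4, ⟨y, hy⟩, hF⟩ := exists_cfg sqNorm_leechU hu hd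
  have k1 : ∀ {w} {s : leechLattice}, sqNorm (s : GolayPt → ℤ) = 32 → dotInt (leechU : GolayPt → ℤ) (s : GolayPt → ℤ) = 0 →
      Eqv z w (ψ (leechU + s)) → w ∈ cB z ∧ w ≠ z ∧ Eqv z (ψ leechU * w) (ψ s) := fun {w s} s1 s2 k => by
    have : sqNorm ((leechU + s : leechLattice) : GolayPt → ℤ) = 64 := by
      rw [AddSubgroup.coe_add, sqNorm_add, s1, sqNorm_leechU, s2]; rfl
    exact ⟨h.mem_B_of_eqv k this, (d.ne_of_short k (by omega) this.le).2,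
      h.eqv_congr (h.eqv_mul' (.inl rfl) k) (y := leechU) (by abel)⟩
  obtain ⟨a1, a2, a3⟩ := k1 hu hd (.inl rfl)
  obtain ⟨b1, b2, b3⟩ := k1 n1 d1 (.inl rfl)
  obtain ⟨c1, c2, c3⟩ := k1 n3 d3 (h.eqv_congr (h.eqv_mul' (Eqv.refl z (ψ (leechU + u₁))) (Eqv.refl z (ψ (leechU + u))))
    (y := y) (by rw [← hy]; abel))
  obtain ⟨m, n, m1, m2, m3, m4⟩ := tri h ha (d.mem _) c e a1 (d.mem _) (h.mem_A_of_eqv a3 hu) b1 (d.mem _)
    (h.mem_A_of_eqv b3 n1) (h.mem_A_of_eqv c3 n3) c1 a2 b2 c2 fun k k1 k2 => by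
      obtain ⟨g, hg⟩ := QuotientGroup.mk_surjective (π ⟨k, mem_centralizer_singleton_iff.2 k1⟩)
      refine (d.ker ⟨k, _⟩).1 (hg.symm.trans (Co.mk_eq_mk_Co1.2 ((hF g fun v v1 v2 v3 => d.eqv_iff.1
        ((d.conj _ g hg v).trans xs.z_sq (k2 _ (d.mem v) ?_ ?_ ?_))).imp_right fun e => by rw [e, mul_one])))
      all_goals rw [d.comm_iff (.inl rfl) (.inl rfl)]
      · exact v1
      all_goals rw [AddSubgroup.coe_add, dotInt_add_right]; omega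
  obtain ⟨g, hg⟩ := QuotientGroup.mk_surjective (π ⟨m, mem_centralizer_singleton_iff.2 m1⟩)
  have gΓ : g ∈ Γ := ⟨n, m3, fun v => (ev (d.mem _) (d.lx.norm _ m1 _ (d.mem v)) (d.conj _ g hg v)).trans zz
    (m4 _ (d.mem v))⟩
  obtain ⟨t, ht⟩ := d.eqv_iff.1 ((d.conj _ g hg leechU).trans xs.z_sq (m2.symm ▸ a3 :
    Eqv z (m * ψ leechU * m⁻¹) (ψ u)))
  rcases eq_or_neg_of_congr (by rw [sqNorm_smul, sqNorm_leechU]; norm_num) (by omega) ht with k | k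
  · exact ⟨g, gΓ, k⟩
  · exact ⟨negOne * g, mul_mem h0 gΓ, by rw [mul_smul, k]; simp⟩

end Cfsg.Agent.Std2B
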