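import Cfsg.Agent.Std2B.RedB

/-! Normal subgroups of `C(a, l)` with few involutions. -/

set_option autoImplicit false

namespace Cfsg.Agent.Std2B

open Cfsg Cfsg.Spor Cfsg.Agent.Spor Cfsg.Agent.Spor.Leech Subgroup Cfsg.Agent.TT Cfsg.Agent.LES
  Cfsg.Agent.Mon Cfsg.Agent.Mon.LL Cfsg.Agent.Mon.LC Cfsg.Agent.MonU Cfsg.Agent.PLocal

variable {G : Type} [Group G]

/-- `x ∈ ⟨a, l⟩`. -/
def F4 (a l x : G) : Prop := x = 1 ∨ x = a ∨ x = l ∨ x = a * l

/-- The projection `X` to `L` of `K^g ∩ C(t)` and `Y = L ∩ K^g`. -/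
structure Cfg (a l : G) (X Y : Subgroup G) : Prop where
  sq : l * l = 1 ∨ l * l = a
  ne : l ≠ 1 ∧ l ≠ a
  aX : a ∈ X
  lX : l ∈ X
  ca : ∀ x ∈ X, Commute x a
  cl : ∀ x ∈ X, Commute x l
  norm : ∀ k, Commute k a → Commute k l → ∀ x ∈ X, k * x * k⁻¹ * x⁻¹ ∈ Y
  le : Y ≤ X
  aY : a ∉ Y
  inv : ∀ x ∈ X, x * x = 1 → F4 a l x

variable {a l x : G} {X Y : Subgroup G}

theorem F4.map (φ : MulAut G) (e : φ a = a) : F4 a (φ l) (φ x) ↔ F4 a l x := by
  unfold F4
  conv_lhs => rw [← e, ← map_mul, ← map_one φ]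
  simp only [φ.injective.eq_iff]

theorem Cfg.map (c : Cfg a l X Y) (φ : MulAut G) (e : φ a = a) :
    Cfg a (φ l) (X.map φ.toMonoidHom) (Y.map φ.toMonoidHom) where
  sq := c.sq.imp (fun h => by rw [← map_mul, h, map_one]) fun h => by rw [← map_mul, h, e]
  ne := ⟨fun h => c.ne.1 (φ.injective (h.trans (map_one φ).symm)),
    fun h => c.ne.2 (φ.injective (h.trans e.symm))⟩
  aX := ⟨a, c.aX, e⟩
  lX := ⟨l, c.lX, rfl⟩
  ca := by rintro _ ⟨x, hx, rfl⟩; exact e ▸ (c.ca x hx).map φ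
  cl := by rintro _ ⟨x, hx, rfl⟩; exact (c.cl x hx).map φ
  norm := by
    rintro k h1 h2 _ ⟨x, hx, rfl⟩
    obtain ⟨k, rfl⟩ := φ.surjective k
    exact ⟨_, c.norm k (φ.injective (by rw [map_mul, map_mul, e]; exact h1))
      (φ.injective (by rw [map_mul, map_mul]; exact h2)) x hx, by simp⟩
  le := map_mono c.le
  aY := fun ⟨y, hy, h⟩ => c.aY (φ.injective (h.trans e.symm) ▸ hy)
  inv := by
    rintro _ ⟨x, hx, rfl⟩ h
    exact (F4.map φ e).2 (c.inv x hx (φ.injective (by simpa using h)))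

theorem Cfg.conj_mem (c : Cfg a l X Y) {k : G} (h1 : Commute k a) (h2 : Commute k l) (hx : x ∈ X) :
    k * x * k⁻¹ ∈ X := (mul_mem_cancel_right (inv_mem hx)).1 (c.le (c.norm k h1 h2 x hx))

theorem Cfg.exists_s (c : Cfg a l X Y) :
    ∃ s, (s = l ∨ s = a * l) ∧ ∀ y ∈ Y, y * y = 1 → y = 1 ∨ y = s := by
  by_cases hl : l ∈ Y
  · refine ⟨l, Or.inl rfl, fun y hy yy => ?_⟩
    rcases c.inv y (c.le hy) yy with e | e | e | e
    exacts [Or.inl e, absurd (e ▸ hy) c.aY, Or.inr e,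
      absurd ((mul_mem_cancel_right hl).1 (e ▸ hy)) c.aY]
  · refine ⟨a * l, Or.inr rfl, fun y hy yy => ?_⟩
    rcases c.inv y (c.le hy) yy with e | e | e | e
    exacts [Or.inl e, absurd (e ▸ hy) c.aY, absurd (e ▸ hy) hl, Or.inr e]

variable [Finite G] {z : G} {Q : Subgroup G}
  {π : centralizer ({z} : Set G) →* Co1} {ψ : leechLattice → G} (h : If0 z Q π ψ)
include h

theorem Cfg.sq_of_z (c : Cfg (ψ leechU) l X Y) (hz : z = l ∨ z = ψ leechU * l) (hx : x ∈ X)
    (hQ : x ∈ Q) : x * x = 1 := by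
  have ha : ψ leechU ∈ cA ψ := IsConj.refl _
  have aa := h.mul_self_A ha
  have zX : z ∈ X := hz.elim (fun e => e ▸ c.lX) fun e => e ▸ mul_mem c.aX c.lX
  have az : Commute z (ψ leechU) := c.ca z zX
  have hl : l = z ∨ l = ψ leechU * z :=
    hz.imp Eq.symm fun e => by rw [e, ← mul_assoc, aa, one_mul]
  let W : AddSubgroup leechLattice :=
    { carrier := {v | ψ v ∈ X}
      zero_mem' := ((h.mon.triv 0).2 ⟨0, by simp⟩).mem zX (one_mem _)
      add_mem' := fun {v w} hv hw => (h.mon.add v w).mem zX (mul_mem hv hw)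
      neg_mem' := fun {v} hv => ((h.eqv_neg (Eqv.refl z (ψ v))).symm h.mon.z_sq).mem zX hv }
  have hW : BS.InvS W := ⟨fun y => ((h.mon.triv _).2 ⟨y, rfl⟩).mem zX (one_mem _), c.aX,
    fun o ho hP v hv => by
      obtain ⟨k, h1, h2⟩ := h.mon.exists_comm_of_congr (g := sgn o ho) (Eqv.refl z (ψ leechU))
        (h.ne_one_A ha) (h.ne_z ha) ⟨0, by simp [sgn_leechU ho hP.1 hP.2]⟩
      refine ((h.mon.conj_eqv h1 (Eqv.refl z (ψ v))).symm h.mon.z_sq).mem zX (c.conj_mem h2 ?_ hv)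
      rcases hl with e | e <;> rw [e]
      exacts [MonData.comm_z k, Commute.mul_right h2 (MonData.comm_z k)]⟩
  obtain ⟨v, hv⟩ := h.mon.onto x hQ
  by_contra n
  have h8 : ψ (e8 none) ∈ X := hW.e8_mem (x := v) ((hv.symm h.mon.z_sq).mem zX hx)
    (fun ⟨w, e⟩ => n (by
      rcases hv.trans h.mon.z_sq ((h.mon.triv _).2 ⟨w, e⟩) with e | e <;> simp [e, h.mon.z_sq]))
    fun ⟨w, e⟩ => n (h.mul_self_A (h.mem_A_of_eqv (h.eqv_congr hv (w := leechU) (y := w) (by rw [e]; abel))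
      (by decide)))
  obtain ⟨b1, b2⟩ := CE.J0.mem_B_of_eqv h (Eqv.refl z (ψ (e8 none))) (sqNorm_e8 _)
  have nA := h.disj (h.mul_z_mem_A ha (h.mon.mem _))
  rcases c.inv _ h8 (h.mul_self_B b1) with e | e | e | e
  · exact h.ne_one_B b1 e
  · exact h.disj ha (e ▸ b1)
  · rcases hl with e' | e'
    exacts [b2 (e.trans e'), nA ((e.trans e') ▸ b1)]
  · rcases hl with e' | e'
    exacts [nA (by rwa [e, e'] at b1), b2 (by rw [e, e', ← mul_assoc, aa, one_mul])]

theorem Cfg.core (c : Cfg (ψ leechU) l X Y) (hl : l ∈ Q) (ll : l * l = 1) (hx : x ∈ X)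
    (hz : Commute x z) (h2 : F4 (ψ leechU) l (x * x)) : F4 (ψ leechU) l x := by
  have ha : ψ leechU ∈ cA ψ := IsConj.refl _
  have hQ := h.mon.mem leechU
  obtain ⟨s, hs, hY⟩ := c.exists_s
  have sX : s ∈ X := hs.elim (fun e => e ▸ c.lX) fun e => e ▸ mul_mem c.aX c.lX
  have key : ∀ y ∈ X, y ∈ Q → y ∈ Y ∨ F4 (ψ leechU) l (y * y) → y * y = 1 := fun y h1 h3 h4 => by
    by_cases hz : z = l ∨ z = ψ leechU * l
    · exact c.sq_of_z h hz h1 h3
    refine (h.xs.sq h3).resolve_right fun e => ?_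
    rcases h4 with h4 | h4 | h4 | h4 | h4
    · have := (hY z (e ▸ mul_mem h4 h4) h.mon.z_sq).resolve_left h.xs.z_ne
      exact hz (hs.imp this.trans this.trans)
    · exact h.xs.z_ne (e ▸ h4)
    · exact h.ne_z ha (h4 ▸ e)
    · exact hz (Or.inl (e ▸ h4))
    · exact hz (Or.inr (e ▸ h4))
  have ss : s * s = 1 := by
    rcases hs with e | e <;> rw [e]
    · exact ll
    · rw [(c.ca l c.lX).mul_mul_mul_comm, ll, h.mul_self_A ha, one_mul]
  have tw := two_of h hz (A := ⊤ ⊓ Cv h (h.xs.z_comm _ hQ) ⊓ Cv h (h.xs.z_comm l hl)) ss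
    (fun v hv => by
      rcases hs with e | e <;> rw [e]
      exacts [hv.2, Commute.mul_left hv.1.2 hv.2])
    fun v hv => by
      have h1 := c.norm _ (Commute.symm hv.1.2).inv_left (Commute.symm hv.2).inv_left x hx
      have h3 : (ψ v)⁻¹ * x * (ψ v)⁻¹⁻¹ * x⁻¹ ∈ Q := by
        simpa [mul_assoc] using mul_mem (inv_mem (h.mon.mem v)) (h.mon.lx.norm x hz _ (h.mon.mem v))
      refine (hY _ h1 (key _ (c.le h1) h3 (Or.inl h1))).imp (fun e => comm_of_conj_eq ?_) fun e => ?_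
      · calc _ = ψ v * ((ψ v)⁻¹ * x * (ψ v)⁻¹⁻¹ * x⁻¹) := by group
          _ = _ := by rw [e, mul_one]
      · rw [← e]; group
  have xQ : x ∈ Q := mem_Q_of_idx h hz (by
      rcases h2 with e | e | e | e <;> rw [e]
      exacts [one_mem _, hQ, hl, mul_mem hQ hl]) ha hQ (c.ca x hx)
    (tw.idx ((two_Q h hl _).idx ((two_Q h hQ _).idx idx_top))) (by norm_num)
    fun v hv => Or.inl (conj_eq_of_comm hv.2)
  exact c.inv x hx (key x hx xQ (Or.inr h2))

theorem Cfg.core4 (c : Cfg a l X Y) (ha : a ∈ cA ψ) (hQ : a ∈ Q) (ll : l * l = a) (hx : x ∈ X)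
    (hz : Commute x z) (h2 : x * x = l ∨ x * x = a * l) : False := by
  have aa := h.mul_self_A ha
  have la := c.ca l c.lX
  have e1 : a * l * (a * l) = a := by rw [la.mul_mul_mul_comm, aa, ll, one_mul]
  have e2 : x * x * (x * x) = a := by rcases h2 with e | e <;> rw [e] <;> assumption
  have hY : ∀ y ∈ Y, y * y = 1 → y = 1 := fun y hy yy => by
    rcases c.inv y (c.le hy) yy with e | e | e | e
    · exact e
    · exact absurd (e ▸ hy) c.aY
    · exact absurd (by rw [← ll, ← e, yy]) (h.ne_one_A ha)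
    · exact absurd (by rw [← e1, ← e, yy]) (h.ne_one_A ha)
  refine jordan h hz (e2 ▸ ha) (e2 ▸ hQ) fun q hq hc => comm_of_conj_eq ?_
  have qa : Commute a q := e2 ▸ hc.mul_left hc
  have ql : Commute l q := by
    rcases h2 with e | e <;> rw [e] at hc
    · exact hc
    · simpa [← mul_assoc, aa] using qa.mul_left hc
  have h1 := c.norm _ qa.symm.inv_left ql.symm.inv_left x hx
  have h3 : q⁻¹ * x * q⁻¹⁻¹ * x⁻¹ ∈ Q := by
    simpa [mul_assoc] using mul_mem (inv_mem hq) (h.mon.lx.norm x hz _ hq)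
  have h4 := hY _ h1 ((h.xs.sq h3).resolve_right fun e =>
    h.xs.z_ne (hY z (e ▸ mul_mem h1 h1) h.mon.z_sq))
  calc _ = q * (q⁻¹ * x * q⁻¹⁻¹ * x⁻¹) := by group
    _ = _ := by rw [h4, mul_one]

theorem Cfg.main (c : Cfg (ψ leechU) l X Y) (hx : x ∈ X) (h2 : F4 (ψ leechU) l (x * x)) :
    F4 (ψ leechU) l x := by
  have ha : ψ leechU ∈ cA ψ := IsConj.refl _
  have hQ := h.mon.mem leechU
  have aa := h.mul_self_A ha
  have la := c.ca l c.lX
  rcases c.sq with ll | ll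
  · obtain ⟨w, h1, h3⟩ := exists_R h ha la.symm ll c.ne.1 c.ne.2
    obtain ⟨k₀, k1, k2⟩ := Bs.std_of h ha hQ h1 h3
    have e0 : MulAut.conj k₀⁻¹ (ψ leechU) = ψ leechU := conj_eq_of_comm (comm_inv_left k1)
    have c0 := c.map _ e0
    rw [← F4.map _ e0, map_mul] at h2
    rw [← F4.map _ e0]
    have hx0 : MulAut.conj k₀⁻¹ x ∈ _ := mem_map_of_mem (MulAut.conj k₀⁻¹).toMonoidHom hx
    have hl0 : MulAut.conj k₀⁻¹ l ∈ Q := by simpa using k2
    have ll0 : MulAut.conj k₀⁻¹ l * MulAut.conj k₀⁻¹ l = 1 := by rw [← map_mul, ll, map_one]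
    generalize MulAut.conj k₀⁻¹ l = l, MulAut.conj k₀⁻¹ x = x at *
    have la := c0.ca l c0.lX
    obtain ⟨g, k, g1, g2, k3, k4, k5⟩ := exists_conj_pair h ha hQ hl0 la.symm ll0 (c0.ca x hx0)
      (c0.cl x hx0) (by
        rw [pow_two, pow_mul, pow_two, pow_two]
        rcases h2 with e | e | e | e <;> rw [e]
        exacts [one_mul 1, aa, ll0, by rw [la.mul_mul_mul_comm, aa, ll0, one_mul]])
    have e1 : MulAut.conj g (ψ leechU) = ψ leechU := conj_eq_of_comm g1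
    have e2 : MulAut.conj g l = l := conj_eq_of_comm g2
    have e3 : MulAut.conj k (ψ leechU) = ψ leechU := conj_eq_of_comm k3
    rw [← F4.map _ e1, e2, ← F4.map _ e3, map_mul, map_mul] at h2
    rw [← F4.map _ e1, e2, ← F4.map _ e3]
    exact (c0.map _ e3).core h k4 (by rw [← map_mul, ll0, map_one])
      (mem_map_of_mem _ (c0.conj_mem g1 g2 hx0)) k5 h2
  · have e1 : l * (ψ leechU * l) = 1 := by rw [← mul_assoc, la.eq, mul_assoc, ll, aa]
    have key : ¬ (x * x = l ∨ x * x = ψ leechU * l) := fun h2 => by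
      obtain ⟨k, k1, k2⟩ := exists_conj_le_C h ha hQ (T := zpowers x) (Amb.isPGroup_zpowers ⟨3, by
        rw [show x ^ 2 ^ 3 = x * x * (x * x) * (x * x * (x * x)) by norm_num [pow_succ, mul_assoc]]
        rcases h2 with e | e <;> rw [e]
        · rw [ll, aa]
        · rw [la.mul_mul_mul_comm, aa, ll, one_mul, aa]⟩)
        (zpowers_le.2 (mem_centralizer_singleton_iff.2 (c.ca x hx)))
      have e3 : MulAut.conj k (ψ leechU) = ψ leechU := conj_eq_of_comm k1
      exact (c.map _ e3).core4 h ha hQ (by rw [← map_mul, ll, e3]) (mem_map_of_mem _ hx)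
        (k2 x (mem_zpowers x)) (h2.imp (fun e => by rw [← e]; simp) fun e => by
          have := congrArg (MulAut.conj k) e
          rwa [map_mul, map_mul, e3] at this)
    rcases h2 with e | e | e | e
    · exact c.inv x hx e
    · have h3 := c.inv _ (mul_mem c.lX hx) (by rw [(c.cl x hx).mul_mul_mul_comm, ll, e, aa])
      rcases h3 with e | e | e | e
      · exact Or.inr (Or.inr (Or.inr (mul_left_cancel (e.trans e1.symm))))
      · exact Or.inr (Or.inr (Or.inl (mul_left_cancel (e.trans ll.symm))))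
      · exact Or.inl (by simpa using e)
      · exact Or.inr (Or.inl (mul_left_cancel (e.trans la.eq.symm)))
    · exact absurd (Or.inl e) key
    · exact absurd (Or.inr e) key

end Cfsg.Agent.Std2B
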